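import Cfsg.Agent.R2.F4P.Th.SkM

/-!
# S5931, `p = 3`, the skeleton (helper17)

`skel` : there is no context `Cx3` without tuples of type `(2, i)`, `(1, i; 1, j)` and without the tuples of type
`(2, i; 2, j)` with `y(σ, τ) ^ # = 0`.
-/

set_option autoImplicit false
set_option linter.unusedSectionVars false
set_option linter.unusedVariables false

namespace Cfsg.Agent.R2.F4P.Th

open Cfsg.Lie
open Cfsg.Agent.ChevalleyStructure.E6Min.Tables Cfsg.Agent.ChevalleyStructure.E6Min.Basic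
open Cfsg.Agent.H952.F4 (sh cr tf tr1 u0)
open Cfsg.Agent.H952.F4.Jord
open Cfsg.Agent.H952.F4.FixV (trL trL_apply W0 mem_W0 finrank_W0 exists_tr1_one)
open Cfsg.Agent.H943.SL2Rel Cfsg.Agent.H943.SL2Mod Cfsg.Agent.R2.H28.SL2 Cfsg.Agent.H943.RepAdd
open Cfsg.Agent.R2.F4L

universe u v w

variable {k : Type u} [Field k] [DecidableEq k] {K : Type w} [Field K] [Fintype K] [DecidableEq K]
variable [CharP k 3] [CharP K 3] [IsAlgClosed k] {a : ℕ}
variable {ρ : Representation k (Matrix.SpecialLinearGroup (Fin 2) K) (I27 → k)}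

/-- the tuples of type `(2, i; 2, j)`, `q > 9` -/
theorem Cx3.no22 (C : Cx3 K a ρ) (ha3 : 3 ≤ a) (no3 : ∀ (ι : K →+* k) i, i < a → ∀ x, TS ι 3 ρ 2 i x → x = 0)
    (no4 : ∀ (ι : K →+* k) i j, i < a → j < a → i ≠ j → ∀ x, TP ι 3 ρ 1 i 1 j x → x = 0)
    (y9 : ∀ (ι : K →+* k) i j, i < a → j < a → i ≠ j → ∀ y, TP ι 3 ρ 2 i 2 j y → y ≠ 0 → (∀ σ τ : k, sh (yy y σ τ) = 0) →
       (∀ z, TP ι 3 ρ 2 i 2 j z → ∃ c : k, z = c • y) → False)
    (ι : K →+* k) {i j : ℕ} (hi : i < a) (hj : j < a) (hij : i < j) {y : ℕ → ℕ → I27 → k}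
    (hy : TP ι 3 ρ 2 i 2 j y) (hy0 : y ≠ 0) : False := by
  have key : ∀ (ι : K →+* k) (d : ℕ), 1 ≤ d → 2 * d ≤ a → ∀ y : ℕ → ℕ → I27 → k, TP ι 3 ρ 2 0 2 d y → y ≠ 0 → False := by
    intro ι d hd hd2 y hy hy0
    have h0 := C.sh_top ha3 (no3 ι) (no4 ι) hd hd2 hy hy0
    have h1 := C.sh_yy ha3 (no4 ι) hd hd2 hy h0
    exact y9 ι 0 d (by omega) (by omega) (by omega) y hy hy0 h1 fun z hz =>
      n9 C (no3 ι) (by omega) (by omega) (by omega) hy hz hy0
  rcases Nat.lt_or_ge a (2 * (j - i)) with h | h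
  · refine key (twi ι 3 j) (a - (j - i)) (by omega) (by omega) (fun s s' => y s' s)
      (hy.swap.twist C.card (l := j) (i' := 0) (j' := a - (j - i)) (by rw [add_zero]) ?_) (fun h0 => hy0 ?_)
    · have e1 : j + (a - (j - i)) = i + a := by omega
      rw [e1, Nat.add_mod_right]
    · funext s s'
      exact congrFun (congrFun h0 s') s
  · exact key (twi ι 3 i) (j - i) (by omega) h y
      (hy.twist C.card (l := i) (i' := 0) (j' := j - i) (by rw [add_zero]) (by rw [Nat.add_sub_cancel' hij.le])) hy0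

/-- **the skeleton** -/
theorem skel (C : Cx3 K a ρ) (ι : K →+* k)
    (no3 : ∀ (ι : K →+* k) i, i < a → ∀ x, TS ι 3 ρ 2 i x → x = 0)
    (no4 : ∀ (ι : K →+* k) i j, i < a → j < a → i ≠ j → ∀ x, TP ι 3 ρ 1 i 1 j x → x = 0)
    (y9 : ∀ (ι : K →+* k) i j, i < a → j < a → i ≠ j → ∀ y, TP ι 3 ρ 2 i 2 j y → y ≠ 0 → (∀ σ τ : k, sh (yy y σ τ) = 0) →
       (∀ z, TP ι 3 ρ 2 i 2 j z → ∃ c : k, z = c • y) → False) : False := by
  have D := dulV C.act
  have hP := PV_symm (k := k)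
  have ha := C.ha
  have no9 : ∀ (X : Submodule k (Vk k)) (hX : ∀ g, ∀ x ∈ X, sV C.act g x ∈ X) (b : ℕ),
      IsV ι 3 (subRep (sV C.act) X hX) b → (Bf k b).card = 9 → False := by
    intro X hX b hVX h9
    rcases Nat.lt_or_ge a 3 with h | h
    · exact C.nine_two (by omega) (no3 ι) (no4 ι) hVX h9
    · obtain ⟨i, j, hij, hb⟩ := (card3 k b).2.2.2.2.2.1 h9
      have hj : j < a := C.digit (c := 2) (by norm_num) (by rw [hb]; exact Nat.le_add_left _ _) (C.lt hVX)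
      have hi : i < a := by omega
      obtain ⟨Y, hY, hVY, -, -⟩ := C.lift hVX (by omega)
      obtain ⟨hY', hVY'⟩ := C.up hVY
      rw [hb] at hVY'
      obtain ⟨v, hv⟩ := IsV.basP ι 3 C.card (by norm_num) (by norm_num) hij.ne hi hj hVY'
      refine C.no22 h no3 no4 y9 ι hi hj hij (BasP.tp hv) fun h0 => ?_
      have e2 : v 0 0 ≠ 0 := hv.li.ne_zero ((0, 0) : Fin 3 × Fin 3)
      exact e2 (Subtype.ext (congrFun (congrFun h0 0) 0))
  have h4 := dvd_of_nd D hP 4 ⊤ (ι := ι) (p := 3) (fun X hX b _ hVX => by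
    obtain ⟨hf, hd⟩ := C.dims (no3 ι) hVX
    rcases hd with hd | hd | hd | hd
    · exact ⟨C.nd_four (no4 ι) hVX hd, by rw [hf, hd]⟩
    · exact (no9 X hX b hVX hd).elim
    · exact ⟨C.nd_twelve hVX hd, by rw [hf, hd]; norm_num⟩
    · exact (C.no_sixteen hVX hd).elim) 25 ⊤ (fun _ _ _ => Submodule.mem_top) le_rfl (by
      rw [finrank_top]
      exact (finrank_Vk (k := k)).le) (nd_top D)
  rw [finrank_top] at h4
  have h25 : Module.finrank k (Vk k) = 25 := finrank_Vk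
  rw [h25] at h4
  omega

end Cfsg.Agent.R2.F4P.Th
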