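import Cfsg.Agent.R2.F4P.Th.Def

/-!
# S5931, `p = 3`, the skeleton : nondegenerate submodules (helper17)

* `rank_orth`, `nd_or`, `nd_inf`, `iso_le` : nondegenerate and isotropic submodules;
* `dvd_of_nd` : dimensions of modules all of whose irreducible submodules are nondegenerate;
* `irr_or` : irreducible submodules of a sum.
-/

set_option autoImplicit false
set_option linter.unusedSectionVars false
set_option linter.unusedVariables false

namespace Cfsg.Agent.R2.F4P.Th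

open Cfsg.Agent.H943.SL2Rel Cfsg.Agent.H943.SL2Mod Cfsg.Agent.R2.H28.SL2 Cfsg.Agent.H943.RepAdd
open Cfsg.Agent.R2.F4L

universe u v w

section Lin

variable {k : Type u} [Field k] {G : Type w} [Group G]
variable {V : Type v} [AddCommGroup V] [Module k V] [FiniteDimensional k V] {σ : Representation k G V}
  {P : V →ₗ[k] V →ₗ[k] k}

/-- nondegenerate subspaces -/
def Nd (P : V →ₗ[k] V →ₗ[k] k) (W : Submodule k V) : Prop := W ⊓ orth P W = ⊥

theorem rank_orth (D : Dul σ σ P) {W : Submodule k V} (hW : ∀ g, ∀ x ∈ W, σ g x ∈ W) :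
    Module.finrank k W + Module.finrank k (orth P W) = Module.finrank k V := by
  obtain ⟨B, D', -⟩ := D.sub hW
  have h1 := D'.finrank_eq
  have h2 := Submodule.finrank_quotient_add_finrank (orth P W)
  omega

theorem nd_compl (D : Dul σ σ P) {W : Submodule k V} (hW : ∀ g, ∀ x ∈ W, σ g x ∈ W) (hn : Nd P W) :
    IsCompl W (orth P W) := by
  rw [isCompl_iff, disjoint_iff, codisjoint_iff]
  refine ⟨hn, ?_⟩
  apply Submodule.eq_top_of_finrank_eq
  have h1 := Submodule.finrank_sup_add_finrank_inf_eq W (orth P W)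
  have hn' : W ⊓ orth P W = ⊥ := hn
  rw [hn', finrank_bot, add_zero] at h1
  rw [h1, rank_orth D hW]

theorem orth_orth_eq (D : Dul σ σ P) (hP : ∀ x y, P x y = P y x) (W : Submodule k V) : orth P (orth P W) = W := by
  ext x
  constructor
  · intro hx
    refine D.orth_orth W x fun y hy => ?_
    rw [hP]
    exact hx y hy
  · intro hx y hy
    rw [hP]
    exact hy x hx

theorem nd_orth (D : Dul σ σ P) (hP : ∀ x y, P x y = P y x) {W : Submodule k V} (hn : Nd P W) : Nd P (orth P W) := by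
  unfold Nd
  rw [orth_orth_eq D hP, inf_comm]
  exact hn

theorem orth_mono {X W : Submodule k V} (h : X ≤ W) : orth P W ≤ orth P X := fun y hy x hx => hy x (h hx)

/-- the orthogonal complement in a nondegenerate subspace -/
theorem nd_inf (D : Dul σ σ P) {X W : Submodule k V} (hX : ∀ g, ∀ x ∈ X, σ g x ∈ X) (hXn : Nd P X) (hWn : Nd P W)
    (hle : X ≤ W) (hP : ∀ x y, P x y = P y x) :
    Nd P (W ⊓ orth P X) ∧ Module.finrank k X + Module.finrank k (W ⊓ orth P X : Submodule k V) = Module.finrank k W := by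
  have hc := nd_compl D hX hXn
  have hdec : ∀ w ∈ W, ∃ x ∈ X, ∃ z ∈ W ⊓ orth P X, x + z = w := by
    intro w hw
    have h1 : w ∈ X ⊔ orth P X := by
      rw [hc.sup_eq_top]
      trivial
    obtain ⟨x, hx, z, hz, e⟩ := Submodule.mem_sup.1 h1
    refine ⟨x, hx, z, ⟨?_, hz⟩, e⟩
    have h2 : z = w - x := by rw [← e]; abel
    rw [h2]
    exact W.sub_mem hw (hle hx)
  constructor
  · unfold Nd
    rw [eq_bot_iff]
    rintro z ⟨⟨hz1, hz2⟩, hz3⟩
    have h1 : z ∈ W ⊓ orth P W := by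
      refine ⟨hz1, fun w hw => ?_⟩
      obtain ⟨x, hx, z', hz', rfl⟩ := hdec w hw
      rw [map_add, LinearMap.add_apply, hz2 x hx, hz3 z' hz', add_zero]
    have h2 : W ⊓ orth P W = ⊥ := hWn
    rwa [h2] at h1
  · have h1 : X ⊔ (W ⊓ orth P X) = W := by
      apply le_antisymm
      · exact sup_le hle inf_le_left
      · intro w hw
        obtain ⟨x, hx, z, hz, rfl⟩ := hdec w hw
        exact Submodule.add_mem_sup hx hz
    have h2 : X ⊓ (W ⊓ orth P X) = ⊥ := by
      rw [eq_bot_iff]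
      rintro x ⟨hx1, -, hx2⟩
      have h3 : x ∈ X ⊓ orth P X := ⟨hx1, hx2⟩
      have h4 : X ⊓ orth P X = ⊥ := hXn
      rwa [h4] at h3
    have h3 := Submodule.finrank_sup_add_finrank_inf_eq X (W ⊓ orth P X)
    rw [h1, h2, finrank_bot, add_zero] at h3
    exact h3.symm

/-- isotropic subspaces of nondegenerate ones -/
theorem iso_le (D : Dul σ σ P) {X W : Submodule k V} (hX : ∀ g, ∀ x ∈ X, σ g x ∈ X) (hW : ∀ g, ∀ x ∈ W, σ g x ∈ W)
    (hWn : Nd P W) (hle : X ≤ W) (hi : X ≤ orth P X) : 2 * Module.finrank k X ≤ Module.finrank k W := by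
  have h1 : X ⊔ orth P W ≤ orth P X := sup_le hi (orth_mono hle)
  have h2 : X ⊓ orth P W = ⊥ := by
    rw [eq_bot_iff]
    rintro x ⟨hx1, hx2⟩
    have h3 : x ∈ W ⊓ orth P W := ⟨hle hx1, hx2⟩
    have h4 : W ⊓ orth P W = ⊥ := hWn
    rwa [h4] at h3
  have h3 := Submodule.finrank_sup_add_finrank_inf_eq X (orth P W)
  rw [h2, finrank_bot, add_zero] at h3
  have h4 := Submodule.finrank_mono h1
  have h5 := rank_orth D hX
  have h6 := rank_orth D hW
  omega

theorem nd_top (D : Dul σ σ P) : Nd P (⊤ : Submodule k V) := by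
  unfold Nd
  rw [eq_bot_iff]
  rintro x ⟨-, hx⟩
  exact (Submodule.mem_bot k).2 (D.right x fun y => hx y trivial)

theorem inf_inv {X W : Submodule k V} (hX : ∀ g, ∀ x ∈ X, σ g x ∈ X) (hW : ∀ g, ∀ x ∈ W, σ g x ∈ W) :
    ∀ g, ∀ x ∈ X ⊓ W, σ g x ∈ X ⊓ W := fun g x hx => ⟨hX g x hx.1, hW g x hx.2⟩

theorem sup_inv {X W : Submodule k V} (hX : ∀ g, ∀ x ∈ X, σ g x ∈ X) (hW : ∀ g, ∀ x ∈ W, σ g x ∈ W) :
    ∀ g, ∀ x ∈ X ⊔ W, σ g x ∈ X ⊔ W := by
  intro g x hx
  obtain ⟨y, hy, z, hz, rfl⟩ := Submodule.mem_sup.1 hx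
  rw [map_add]
  exact Submodule.add_mem_sup (hX g y hy) (hW g z hz)

end Lin

variable {k : Type u} [Field k] [DecidableEq k] {K : Type w} [Field K] [Fintype K] [DecidableEq K] {ι : K →+* k}
variable {p : ℕ} [Fact p.Prime] [CharP k p] [CharP K p]
variable {V : Type v} [AddCommGroup V] [Module k V] [FiniteDimensional k V]
  {σ : Representation k (Matrix.SpecialLinearGroup (Fin 2) K) V} {P : V →ₗ[k] V →ₗ[k] k}

/-- irreducible submodules are isotropic or nondegenerate -/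
theorem nd_or [IsAlgClosed k] (D : Dul σ σ P) {X : Submodule k V} {hX : ∀ g, ∀ x ∈ X, σ g x ∈ X} {b : ℕ}
    (hV : IsV ι p (subRep σ X hX) b) : Nd P X ∨ X ≤ orth P X := IsV.inf_or_le ι p hV (D.orth_inv hX)

/-- two irreducible submodules are equal or independent -/
theorem irr_or [IsAlgClosed k] {X Y : Submodule k V} {hX : ∀ g, ∀ x ∈ X, σ g x ∈ X} {hY : ∀ g, ∀ x ∈ Y, σ g x ∈ Y} {b c : ℕ}
    (hVX : IsV ι p (subRep σ X hX) b) (hVY : IsV ι p (subRep σ Y hY) c) : X ⊓ Y = ⊥ ∨ X = Y := by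
  rcases IsV.inf_or_le ι p hVX hY with h | h
  · exact Or.inl h
  · rcases IsV.inf_or_le ι p hVY hX with h' | h'
    · left
      rw [inf_comm]
      exact h'
    · right
      exact le_antisymm h h'

theorem IsV.ne_bot {X : Submodule k V} {hX : ∀ g, ∀ x ∈ X, σ g x ∈ X} {b : ℕ}
    (hVX : IsV ι p (subRep σ X hX) b) : X ≠ ⊥ := Submodule.nontrivial_iff_ne_bot.1 (IsV.irr ι p hVX).1

theorem IsV.pos {X : Submodule k V} {hX : ∀ g, ∀ x ∈ X, σ g x ∈ X} {b : ℕ}
    (hVX : IsV ι p (subRep σ X hX) b) : 0 < Module.finrank k X := by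
  rw [Nat.pos_iff_ne_zero, Ne, Submodule.finrank_eq_zero]
  exact IsV.ne_bot hVX

/-- irreducible submodules of a sum of two irreducible ones -/
theorem irr_sup [IsAlgClosed k] {X Y Z : Submodule k V} {hX : ∀ g, ∀ x ∈ X, σ g x ∈ X} {hY : ∀ g, ∀ x ∈ Y, σ g x ∈ Y}
    {hZ : ∀ g, ∀ x ∈ Z, σ g x ∈ Z} {b c d : ℕ}
    (hVX : IsV ι p (subRep σ X hX) b) (hVY : IsV ι p (subRep σ Y hY) c) (hVZ : IsV ι p (subRep σ Z hZ) d)
    (hle : Z ≤ X ⊔ Y) : Module.finrank k Z = Module.finrank k X ∨ Module.finrank k Z = Module.finrank k Y := by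
  rcases irr_or hVX hVY with h0 | h0
  swap
  · subst h0
    rw [sup_idem] at hle
    rcases irr_or hVX hVZ with h1 | h1
    · rw [inf_eq_right.2 hle] at h1
      exact absurd h1 (IsV.ne_bot hVZ)
    · left
      rw [h1]
  have hXY := Submodule.finrank_sup_add_finrank_inf_eq X Y
  rw [h0, finrank_bot, add_zero] at hXY
  rcases irr_or hVZ hVY with h1 | h1
  · left
    have hZY := Submodule.finrank_sup_add_finrank_inf_eq Z Y
    rw [h1, finrank_bot, add_zero] at hZY
    rcases IsV.inf_or_le ι p hVX (sup_inv hZ hY) with h2 | h2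
    · exfalso
      have h3 := Submodule.finrank_sup_add_finrank_inf_eq X (Z ⊔ Y)
      rw [h2, finrank_bot, add_zero] at h3
      have h4 : Module.finrank k (X ⊔ (Z ⊔ Y) : Submodule k V) ≤ Module.finrank k (X ⊔ Y : Submodule k V) :=
        Submodule.finrank_mono (sup_le le_sup_left (sup_le hle le_sup_right))
      have h5 := IsV.pos hVZ
      omega
    · have h3 : Module.finrank k (X ⊔ Y : Submodule k V) ≤ Module.finrank k (Z ⊔ Y : Submodule k V) :=
        Submodule.finrank_mono (sup_le h2 le_sup_right)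
      have h4 : Module.finrank k (Z ⊔ Y : Submodule k V) ≤ Module.finrank k (X ⊔ Y : Submodule k V) :=
        Submodule.finrank_mono (sup_le hle le_sup_right)
      omega
  · right
    rw [h1]

/-- **dimensions of nondegenerate submodules** -/
theorem dvd_of_nd [IsAlgClosed k] (D : Dul σ σ P) (hP : ∀ x y, P x y = P y x) (m : ℕ) (U : Submodule k V)
    (h : ∀ (X : Submodule k V) (hX : ∀ g, ∀ x ∈ X, σ g x ∈ X) (b : ℕ), X ≤ U → IsV ι p (subRep σ X hX) b →
      Nd P X ∧ m ∣ Module.finrank k X) (n : ℕ) : ∀ (W : Submodule k V) (hW : ∀ g, ∀ x ∈ W, σ g x ∈ W), W ≤ U →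
      Module.finrank k W ≤ n → Nd P W → m ∣ Module.finrank k W := by
  induction n with
  | zero =>
    intro W hW _ hn _
    have h1 : Module.finrank k W = 0 := by omega
    rw [h1]
    exact dvd_zero m
  | succ n ih =>
    intro W hW hWU hn hWn
    by_cases h0 : W = ⊥
    · rw [h0, finrank_bot]
      exact dvd_zero m
    obtain ⟨b, hb1, -⟩ := exists_inSoc_sub ι p hW h0
    obtain ⟨X', hX', hV'⟩ := hb1
    obtain ⟨hX, e, he⟩ := eqv_map (subRep σ W hW) σ W.subtype (fun _ _ => rfl) W.injective_subtype X' hX'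
    have hV := IsV.iso ι p e he hV'
    have hle : X'.map W.subtype ≤ W := Submodule.map_subtype_le _ _
    obtain ⟨hXn, hd⟩ := h _ hX b (hle.trans hWU) hV
    obtain ⟨h1, h2⟩ := nd_inf D hX hXn hWn hle hP
    have h3 := IsV.pos hV
    have h4 := ih _ (inf_inv hW (D.orth_inv hX)) (inf_le_left.trans hWU) (by omega) h1
    rw [← h2]
    exact (Nat.dvd_add_right hd).2 h4

/-- an irreducible submodule of a nonzero submodule -/
theorem exists_irr [IsAlgClosed k] {W : Submodule k V} (hW : ∀ g, ∀ x ∈ W, σ g x ∈ W) (h0 : W ≠ ⊥) :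
    ∃ (X : Submodule k V) (hX : ∀ g, ∀ x ∈ X, σ g x ∈ X) (b : ℕ), X ≤ W ∧ IsV ι p (subRep σ X hX) b := by
  obtain ⟨b, hb1, -⟩ := exists_inSoc_sub ι p hW h0
  obtain ⟨X', hX', hV'⟩ := hb1
  obtain ⟨hX, e, he⟩ := eqv_map (subRep σ W hW) σ W.subtype (fun _ _ => rfl) W.injective_subtype X' hX'
  exact ⟨_, hX, b, Submodule.map_subtype_le _ _, IsV.iso ι p e he hV'⟩

end Cfsg.Agent.R2.F4P.Th
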