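import Cfsg.Agent.R2.F4P.Th.SkL
import Cfsg.Agent.R2.H28.SL2.ExtH

/-!
# S5931, `p = 3`, the skeleton : the module `J_0 / k` (helper17)

* `Vk`, `sV`, `PV`, `dulV`, `finrank_Vk` : the 25-dimensional module;
* `ext_zero` : `Ext¹(V_b, k) = 0` for the labels of dimension `≠ 4`; `lift_V` : lifting of submodules to `J_0`;
* `no_one`, `no_three` : there are no irreducible submodules of dimension 1, 3.
-/

set_option autoImplicit false
set_option linter.unusedSectionVars false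
set_option linter.unusedVariables false

namespace Cfsg.Agent.R2.F4P.Th

open Cfsg.Lie
open Cfsg.Agent.ChevalleyStructure.E6Min.Tables Cfsg.Agent.ChevalleyStructure.E6Min.Basic
open Cfsg.Agent.H952.F4 (sh cr tf tr1 u0)
open Cfsg.Agent.H952.F4.Jord
open Cfsg.Agent.H952.F4.FixV (trL trL_apply W0 mem_W0 finrank_W0 exists_tr1_one)
open Cfsg.Agent.H943.SL2Rel Cfsg.Agent.H943.SL2Mod Cfsg.Agent.R2.H28.SL2 Cfsg.Agent.H943.RepAdd
open Cfsg.Agent.R2.F4L
open Cfsg.Agent.R2.GEO (tfB tfB_apply)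

universe u v w

section Quo

variable {k : Type u} [Field k] {G : Type w} [Group G] {ρ : Representation k G (I27 → k)}

/-- the scalars -/
abbrev Lk (k : Type u) [Field k] : Submodule k (W0 k) := (Submodule.span k {u0 k}).comap (W0 k).subtype

/-- the 25-dimensional space -/
abbrev Vk (k : Type u) [Field k] : Type u := W0 k ⧸ Lk k

theorem mem_Lk {x : W0 k} : x ∈ Lk k ↔ ∃ c : k, (x : I27 → k) = c • u0 k := by
  rw [Submodule.mem_comap, Submodule.mem_span_singleton]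
  constructor
  · rintro ⟨c, h⟩
    exact ⟨c, h.symm⟩
  · rintro ⟨c, h⟩
    exact ⟨c, h.symm⟩

theorem W0_inv (H : Act ρ) : ∀ g, ∀ x ∈ W0 k, ρ g x ∈ W0 k := fun g x hx => by
  rw [mem_W0] at hx ⊢
  rw [H.tr, hx]

/-- the representation on `J_0` -/
noncomputable abbrev s0 (H : Act ρ) : Representation k G (W0 k) := subRep ρ (W0 k) (W0_inv H)

theorem Lk_inv (H : Act ρ) : ∀ g, ∀ x ∈ Lk k, s0 H g x ∈ Lk k := fun g x hx => by
  obtain ⟨c, hc⟩ := mem_Lk.1 hx
  refine mem_Lk.2 ⟨c, ?_⟩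
  show ρ g (x : I27 → k) = c • u0 k
  rw [hc, map_smul, H.u0]

/-- the representation on `J_0 / k` -/
noncomputable abbrev sV (H : Act ρ) : Representation k G (Vk k) := quotRep (s0 H) (Lk k) (Lk_inv H)

theorem u0_tf {x : I27 → k} (hx : x ∈ W0 k) (c : k) : tf (c • u0 k) x = 0 := by
  rw [tf_smul_left, tf_u0, (mem_W0 _).1 hx, mul_zero]

/-- the form on `J_0 / k` -/
noncomputable def PV (k : Type u) [Field k] : Vk k →ₗ[k] Vk k →ₗ[k] k :=
  (Lk k).liftQ ((Lk k).liftQ ((tfB k).compl₁₂ (W0 k).subtype (W0 k).subtype) (by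
    intro x hx
    obtain ⟨c, hc⟩ := mem_Lk.1 hx
    rw [LinearMap.mem_ker]
    refine LinearMap.ext fun y => ?_
    show tf (x : I27 → k) (y : I27 → k) = 0
    rw [hc]
    exact u0_tf y.2 c)).flip (by
    intro x hx
    obtain ⟨c, hc⟩ := mem_Lk.1 hx
    rw [LinearMap.mem_ker]
    refine LinearMap.ext fun y => ?_
    obtain ⟨y, rfl⟩ := (Lk k).mkQ_surjective y
    show tf (y : I27 → k) (x : I27 → k) = 0
    rw [hc, tf_comm]
    exact u0_tf y.2 c)

theorem PV_mk (x y : W0 k) : PV k ((Lk k).mkQ x) ((Lk k).mkQ y) = tf (x : I27 → k) (y : I27 → k) := by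
  rw [tf_comm]
  rfl

theorem PV_symm (x y : Vk k) : PV k x y = PV k y x := by
  obtain ⟨x, rfl⟩ := (Lk k).mkQ_surjective x
  obtain ⟨y, rfl⟩ := (Lk k).mkQ_surjective y
  rw [PV_mk, PV_mk, tf_comm]

theorem eq_u0_of {x : I27 → k} (hx : ∀ y ∈ W0 k, tf x y = 0) : ∃ c : k, x = c • u0 k := by
  obtain ⟨e, he⟩ := exists_tr1_one (F := k)
  refine ⟨tf x e, ?_⟩
  rw [← sub_eq_zero]
  refine tf_nondeg fun y => ?_
  have h1 : y + (-tr1 y) • e ∈ W0 k := by
    rw [mem_W0, tr1_add, tr1_smul, he]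
    ring
  have h2 := hx _ h1
  rw [tf_add_right, tf_smul_right] at h2
  have h3 : tf (x - tf x e • u0 k) y = tf x y - tf x e * tr1 y := by
    rw [sub_eq_add_neg, ← neg_smul, tf_add_left, tf_smul_left, tf_u0]
    ring
  rw [h3]
  linear_combination h2

theorem dulV (H : Act ρ) : Dul (sV H) (sV H) (PV k) := by
  have key : ∀ x : Vk k, (∀ y, PV k x y = 0) → x = 0 := by
    intro x hx
    obtain ⟨x, rfl⟩ := (Lk k).mkQ_surjective x
    rw [Submodule.mkQ_apply, Submodule.Quotient.mk_eq_zero, mem_Lk]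
    refine eq_u0_of fun y hy => ?_
    have := hx ((Lk k).mkQ ⟨y, hy⟩)
    rwa [PV_mk] at this
  refine ⟨fun g x y => ?_, key, fun y hy => key y fun x => by rw [PV_symm]; exact hy x⟩
  obtain ⟨x, rfl⟩ := (Lk k).mkQ_surjective x
  obtain ⟨y, rfl⟩ := (Lk k).mkQ_surjective y
  rw [quotRep_mk, quotRep_mk, PV_mk, PV_mk]
  exact H.tf g _ _

theorem finrank_Vk [CharP k 3] : Module.finrank k (Vk k) = 25 := by
  have h1 := Submodule.finrank_quotient_add_finrank (Lk k)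
  rw [finrank_W0] at h1
  have h3 : (3 : k) = 0 := by
    have := CharP.cast_eq_zero k 3
    exact_mod_cast this
  have hu : u0 k ∈ W0 k := by
    rw [mem_W0, tr1_u0, h3]
  have h2 : Lk k = Submodule.span k {(⟨u0 k, hu⟩ : W0 k)} := by
    ext x
    rw [mem_Lk, Submodule.mem_span_singleton]
    constructor
    · rintro ⟨c, h⟩
      exact ⟨c, Subtype.ext h.symm⟩
    · rintro ⟨c, rfl⟩
      exact ⟨c, rfl⟩
  have h4 : Module.finrank k (Lk k) = 1 := by
    rw [h2]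
    refine finrank_span_singleton fun h0 => ?_
    exact u0_ne (congrArg Subtype.val h0)
  change Module.finrank k (W0 k ⧸ Lk k) = 25
  omega

end Quo

variable {k : Type u} [Field k] [DecidableEq k] {K : Type w} [Field K] [Fintype K] [DecidableEq K] {ι : K →+* k}

section Ext

variable {p : ℕ} [Fact p.Prime] [CharP k p] [CharP K p] [IsAlgClosed k] {a : ℕ}

/-- extensions by the trivial module -/
theorem ext_zero (ι : K →+* k) (hF : Fintype.card K = p ^ a) {b : ℕ} (hb' : b < p ^ a) (h : hb p a b = 0) :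
    Ext0 (Sy.{u, v, w} ι p) b 0 := by
  refine ext0_symm ι p (ext0_of_Hs ι p hF {b} (fun d hd => ?_) (fun z hz => ?_) ?_)
  · rw [Multiset.mem_singleton.1 hd]
    exact hb'
  · have h0 : chB k 0 z = 1 := by
      have := chB_small k p (n := 0) (Nat.Prime.pos Fact.out) z
      rw [this]
      simp [chi]
    rw [cs_singleton, h0, one_mul]
  · unfold Hs
    rw [Multiset.map_singleton, Multiset.sum_singleton, h]

end Ext

variable [CharP k 3] [CharP K 3] [IsAlgClosed k] {a : ℕ}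
variable {ρ : Representation k (Matrix.SpecialLinearGroup (Fin 2) K) (I27 → k)}

/-- trivial modules -/
theorem IsV.triv {V : Type v} [AddCommGroup V] [Module k V]
    {σ : Representation k (Matrix.SpecialLinearGroup (Fin 2) K) V} (h : IsV ι 3 σ 0) (g : Matrix.SpecialLinearGroup (Fin 2) K)
    (x : V) : σ g x = x := by
  have h0 : IsV ι 3 σ (0 * 3 ^ 0) := by rw [zero_mul]; exact h
  obtain ⟨v, hv⟩ := IsV.basS ι 3 (by norm_num) h0
  have hx : x ∈ Submodule.span k (Set.range fun s : Fin (0 + 1) => v s) := hv.sp trivial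
  have hf : ∀ g, σ g (v 0) = v 0 := by
    refine fix_of (fun t => ?_) (fun b => ?_) ?_
    · have := hv.u 0 le_rfl t
      rw [this]
      simp
    · have := hv.h 0 le_rfl b
      rw [this]
      simp
    · have := hv.w 0 le_rfl
      rw [this]
      simp
  induction hx using Submodule.span_induction with
  | mem x hx =>
    obtain ⟨s, rfl⟩ := hx
    have : (s : ℕ) = 0 := by omega
    show σ g (v s) = v s
    rw [this]
    exact hf g
  | zero => rw [map_zero]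
  | add x y _ _ hx hy => rw [map_add, hx, hy]
  | smul c x _ hx => rw [map_smul, hx]

/-- the labels -/
theorem Cx3.lt (C : Cx3 K a ρ) {V : Type v} [AddCommGroup V] [Module k V]
    {σ : Representation k (Matrix.SpecialLinearGroup (Fin 2) K) V} {b : ℕ} (h : IsV ι 3 σ b) : b < 3 ^ a :=
  label_lt ι 3 C.card h

theorem Cx3.negV (C : Cx3 K a ρ) (x : Vk k) : sV C.act (-1) x = x := by
  obtain ⟨x, rfl⟩ := (Lk k).mkQ_surjective x
  rw [quotRep_mk]
  congr 1
  apply Subtype.ext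
  show ρ (-1) (x : I27 → k) = x
  rw [C.neg]
  rfl

/-- labels of the submodules are even -/
theorem Cx3.ev (C : Cx3 K a ρ) {X : Submodule k (Vk k)} {hX : ∀ g, ∀ x ∈ X, sV C.act g x ∈ X} {b : ℕ}
    (h : IsV ι 3 (subRep (sV C.act) X hX) b) : b % 2 = 0 :=
  IsV.ev (by norm_num) h fun x => Subtype.ext (C.negV x)

/-- **lifting** -/
theorem Cx3.lift (C : Cx3 K a ρ) {X : Submodule k (Vk k)} {hX : ∀ g, ∀ x ∈ X, sV C.act g x ∈ X} {b : ℕ}
    (h : IsV ι 3 (subRep (sV C.act) X hX) b) (h4 : (Bf k b).card ≠ 4) :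
    ∃ (Y : Submodule k (W0 k)) (hY : ∀ g, ∀ x ∈ Y, s0 C.act g x ∈ Y), IsV (V := Y) ι 3 (subRep (s0 C.act) Y hY) b ∧
      Y.map (Lk k).mkQ = X ∧ Y ⊓ Lk k = ⊥ := by
  refine lift0 (S := Sy.{u, u, w} ι 3) (Lk k) (Lk_inv C.act) (fun b' hb' => ?_) X hX h
  have h1 : b' = 0 := by
    have h2 := finrank_cf.{u, u, w} ι 3 _ (Lk k) (subRep (s0 C.act) (Lk k) (Lk_inv C.act)) le_rfl
    have h3 : Module.finrank k (Lk k) ≤ 1 := by
      have h4 := Submodule.finrank_quotient_add_finrank (Lk k)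
      have h5 : Module.finrank k (W0 k ⧸ Lk k) = 25 := finrank_Vk
      rw [finrank_W0] at h4
      omega
    obtain ⟨s, hs⟩ := Multiset.exists_cons_of_mem hb'
    rw [hs, Multiset.map_cons, Multiset.sum_cons] at h2
    by_contra h0
    have h5 := card_Bf_pos (k := k) (Nat.pos_of_ne_zero h0)
    omega
  rw [h1]
  exact ext_zero ι C.card (C.lt h) (hb3 k C.ha (C.lt h) h4)

/-- the image in `J` -/
theorem Cx3.up (C : Cx3 K a ρ) {Y : Submodule k (W0 k)} {hY : ∀ g, ∀ x ∈ Y, s0 C.act g x ∈ Y} {b : ℕ}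
    (h : IsV (V := Y) ι 3 (subRep (s0 C.act) Y hY) b) : ∃ hY' : ∀ g, ∀ x ∈ Y.map (W0 k).subtype, ρ g x ∈ Y.map (W0 k).subtype,
      IsV ι 3 (subRep ρ (Y.map (W0 k).subtype) hY') b := by
  obtain ⟨hY', e, he⟩ := eqv_map (s0 C.act) ρ (W0 k).subtype (fun _ _ => rfl) (W0 k).injective_subtype Y hY
  exact ⟨hY', IsV.iso ι 3 e he h⟩

/-- **no one-dimensional submodules** -/
theorem Cx3.no_one (C : Cx3 K a ρ) {X : Submodule k (Vk k)} {hX : ∀ g, ∀ x ∈ X, sV C.act g x ∈ X}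
    (h : IsV ι 3 (subRep (sV C.act) X hX) 0) : False := by
  apply IsV.ne_bot h
  rw [eq_bot_iff]
  intro x hx
  obtain ⟨y, rfl⟩ := (Lk k).mkQ_surjective x
  rw [Submodule.mem_bot, Submodule.mkQ_apply, Submodule.Quotient.mk_eq_zero, mem_Lk]
  refine C.fixm _ fun g => ?_
  have h1 := congrArg Subtype.val (IsV.triv h g ⟨_, hx⟩)
  have h2 : (Lk k).mkQ (s0 C.act g y) = (Lk k).mkQ y := h1
  have h3 : s0 C.act g y - y ∈ Lk k := (Submodule.Quotient.eq _).1 h2
  obtain ⟨c, hc⟩ := mem_Lk.1 h3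
  have h4 : ρ g (y : I27 → k) - y = c • u0 k := hc
  refine ⟨c, ?_⟩
  rw [← h4]
  abel

theorem Cx3.digit (C : Cx3 K a ρ) {c i b : ℕ} (hc : 1 ≤ c) (hb : c * 3 ^ i ≤ b) (hlt : b < 3 ^ a) : i < a := by
  by_contra h
  have h1 : 3 ^ a ≤ 3 ^ i := Nat.pow_le_pow_right (by norm_num) (by omega)
  have h2 : 1 * 3 ^ i ≤ c * 3 ^ i := Nat.mul_le_mul_right _ hc
  omega

/-- **no three-dimensional submodules** -/
theorem Cx3.no_three (C : Cx3 K a ρ) (no3 : ∀ i, i < a → ∀ x, TS ι 3 ρ 2 i x → x = 0)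
    {X : Submodule k (Vk k)} {hX : ∀ g, ∀ x ∈ X, sV C.act g x ∈ X} {b : ℕ}
    (h : IsV ι 3 (subRep (sV C.act) X hX) b) (h3 : (Bf k b).card = 3) : False := by
  obtain ⟨l, hl⟩ := (card3 k b).2.2.1 h3
  have hla : l < a := C.digit (c := 2) (by norm_num) hl.symm.le (C.lt h)
  obtain ⟨Y, hY, hVY, -, -⟩ := C.lift h (by omega)
  obtain ⟨hY', hVY'⟩ := C.up hVY
  rw [hl] at hVY'
  obtain ⟨v, hv⟩ := IsV.basS ι 3 (by norm_num) hVY'
  have h1 := no3 l hla _ (BasS.ts hv)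
  have h2 : v 0 ≠ 0 := hv.li.ne_zero (0 : Fin 3)
  exact h2 (Subtype.ext (congrFun h1 0))

end Cfsg.Agent.R2.F4P.Th
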