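import Cfsg.Agent.R2.F4P.Th.SkD

/-!
# S5931, `p = 3`, the skeleton : dimension 4 (helper17)

* `Cx3.nd_four` : the irreducible submodules of dimension 4 of `J_0 / k` are nondegenerate.
-/

set_option autoImplicit false
set_option linter.unusedSectionVars false
set_option linter.unusedVariables false

namespace Cfsg.Agent.R2.F4P.Th

open Cfsg.Lie
open Cfsg.Agent.ChevalleyStructure.E6Min.Tables Cfsg.Agent.ChevalleyStructure.E6Min.Basic
open Cfsg.Agent.H952.F4 (sh cr tf tr1 u0)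
open Cfsg.Agent.H952.F4.Jord
open Cfsg.Agent.H952.F4.FixV (trL trL_apply W0 mem_W0 finrank_W0 exists_tr1_one)
open Cfsg.Agent.H943.SL2Rel Cfsg.Agent.H943.SL2Mod Cfsg.Agent.R2.H28.SL2 Cfsg.Agent.H943.RepAdd
open Cfsg.Agent.R2.F4L
open Cfsg.Agent.R2.GEO (tfB tfB_apply crB crB_apply)

universe u v w

variable {k : Type u} [Field k] [DecidableEq k] {K : Type w} [Field K] [Fintype K] [DecidableEq K] {ι : K →+* k}
variable {a : ℕ} [CharP k 3] [CharP K 3] [IsAlgClosed k]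
variable {ρ : Representation k (Matrix.SpecialLinearGroup (Fin 2) K) (I27 → k)}

omit [DecidableEq k] [IsAlgClosed k] in
theorem three_zero (k : Type u) [Field k] [CharP k 3] : (3 : k) = 0 := by
  have := CharP.cast_eq_zero k 3
  exact_mod_cast this

/-- the trilinear form modulo the scalars -/
theorem tf3_mod {x y z x' y' z' : I27 → k} {c d e : k} (hx : x = x' + c • u0 k) (hy : y = y' + d • u0 k)
    (hz : z = z' + e • u0 k) (tx : tr1 x' = 0) (ty : tr1 y' = 0) (tz : tr1 z' = 0) (xy : tf x' y' = 0) (xz : tf x' z' = 0)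
    (yz : tf y' z' = 0) : tf (cr x y) z = tf (cr x' y') z' := by
  have h3 := three_zero k
  have hu : tr1 (u0 k) = 0 := by rw [tr1_u0, h3]
  have huu : tf (u0 k) (u0 k) = 0 := by rw [tf_u0, hu]
  subst hx hy hz
  have e1 : cr x' (u0 k) = -x' := by rw [cr_comm, cr_u0, tx, zero_smul, zero_sub]
  have e2 : cr (u0 k) y' = -y' := by rw [cr_u0, ty, zero_smul, zero_sub]
  have e3 : cr (u0 k) (u0 k) = -u0 k := by rw [cr_u0, hu, zero_smul, zero_sub]
  have n1 : ∀ x y : I27 → k, tf (-x) y = -tf x y := fun x y => by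
    rw [← neg_one_smul k, tf_smul_left, neg_one_mul]
  rw [cr_add_left, cr_add_right, cr_add_right, cr_smul_left, cr_smul_right, cr_smul_left, cr_smul_right, e1, e2, e3]
  simp only [tf_add_left, tf_add_right, tf_smul_left, tf_smul_right, n1, xz, yz, huu]
  have e4 : tf x' (u0 k) = 0 := by rw [tf_comm, tf_u0, tx]
  have e5 : tf y' (u0 k) = 0 := by rw [tf_comm, tf_u0, ty]
  have e6 : tf (u0 k) z' = 0 := by rw [tf_u0, tz]
  have e7 : tf (cr x' y') (u0 k) = 0 := by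
    rw [tf_comm, tf_u0, tr1_cr, tx, xy]
    ring
  rw [e4, e5, e6, e7]
  ring

/-- **the irreducible submodules of dimension 4 are nondegenerate** -/
theorem Cx3.nd_four (C : Cx3 K a ρ)
    (no4 : ∀ i j, i < a → j < a → i ≠ j → ∀ x, TP ι 3 ρ 1 i 1 j x → x = 0)
    {X : Submodule k (Vk k)} {hX : ∀ g, ∀ x ∈ X, sV C.act g x ∈ X} {b : ℕ}
    (h : IsV ι 3 (subRep (sV C.act) X hX) b) (h4 : (Bf k b).card = 4) : Nd (PV k) X := by
  rcases nd_or (dulV C.act) h with hn | hn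
  · exact hn
  exfalso
  obtain ⟨i, j, hij, hb⟩ := (card3 k b).2.2.2.1 h4
  have hlt := C.lt h
  have hj : j < a := C.digit (c := 1) le_rfl (by rw [one_mul, hb]; exact Nat.le_add_left _ _) hlt
  have hi : i < a := by omega
  have A2 : Adm 3 a 2 i 2 j := ⟨by norm_num, by norm_num, by omega, hi, hj⟩
  have A1 : Adm 3 a 1 i 1 j := ⟨by norm_num, by norm_num, by omega, hi, hj⟩
  have h' : IsV ι 3 (subRep (sV C.act) X hX) (1 * 3 ^ i + 1 * 3 ^ j) := by
    rw [one_mul, one_mul, ← hb]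
    exact h
  obtain ⟨v, hv⟩ := IsV.basP ι 3 C.card A1.n A1.m A1.ij A1.i A1.j h'
  -- the section
  obtain ⟨s, hs⟩ := (Lk k).mkQ.exists_rightInverse_of_surjective (LinearMap.range_eq_top.2 (Lk k).mkQ_surjective)
  have hs' : ∀ y, (Lk k).mkQ (s y) = y := fun y => LinearMap.congr_fun hs y
  let q : X →ₗ[k] (I27 → k) := (W0 k).subtype ∘ₗ s ∘ₗ X.subtype
  have hq : ∀ x : X, q x = (s (x : Vk k) : I27 → k) := fun _ => rfl
  have hqt : ∀ x, tr1 (q x) = 0 := fun x => (mem_W0 _).1 (s (x : Vk k)).2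
  have hqq : ∀ x y, tf (q x) (q y) = 0 := by
    intro x y
    rw [hq, hq, ← PV_mk, hs', hs']
    exact hn y.2 x x.2
  have hqg : ∀ g x, ∃ c : k, q (subRep (sV C.act) X hX g x) = ρ g (q x) + c • u0 k := by
    intro g x
    have e1 : (Lk k).mkQ (s (sV C.act g (x : Vk k))) = (Lk k).mkQ (s0 C.act g (s (x : Vk k))) := by
      rw [hs', ← quotRep_mk (s0 C.act) (Lk k) (Lk_inv C.act), hs']
    have e2 : s (sV C.act g (x : Vk k)) - s0 C.act g (s (x : Vk k)) ∈ Lk k := (Submodule.Quotient.eq _).1 e1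
    obtain ⟨c, hc⟩ := mem_Lk.1 e2
    refine ⟨c, ?_⟩
    have e3 : (s (sV C.act g (x : Vk k)) : I27 → k) - ρ g (s (x : Vk k) : I27 → k) = c • u0 k := hc
    show (s (sV C.act g (x : Vk k)) : I27 → k) = ρ g (s (x : Vk k) : I27 → k) + c • u0 k
    rw [← e3]
    abel
  -- the trilinear form
  let F : X →ₗ[k] X →ₗ[k] X →ₗ[k] k := ((crB k).compl₁₂ q q).compr₂ ((tfB k).compl₂ q)
  have hF : ∀ x y z, F x y z = tf (cr (q x) (q y)) (q z) := fun _ _ _ => rfl
  have hF0 : F = 0 := by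
    refine tri11 (by norm_num) C.card A2 hv F (fun x y z => ?_) (fun x y z => ?_) (fun g x y z => ?_)
    · rw [hF, hF, cr_comm]
    · rw [hF, hF]
      calc tf (cr (q x) (q y)) (q z) = tf (cr (q y) (q z)) (q x) := tf3_symm _ _ _
        _ = tf (cr (q z) (q y)) (q x) := by rw [cr_comm (q y)]
        _ = tf (cr (q x) (q z)) (q y) := (tf3_symm _ _ _).symm
    · obtain ⟨c, hc⟩ := hqg g x
      obtain ⟨d, hd⟩ := hqg g y
      obtain ⟨e, he⟩ := hqg g z
      rw [hF, hF, tf3_mod hc hd he (by rw [C.act.tr, hqt]) (by rw [C.act.tr, hqt]) (by rw [C.act.tr, hqt])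
        (by rw [C.act.tf, hqq]) (by rw [C.act.tf, hqq]) (by rw [C.act.tf, hqq]), C.act.tf3]
  -- the preimage
  have hE : ∀ x : W0 k, (Lk k).mkQ x ∈ X → ∃ (y : X) (c : k), (x : I27 → k) = q y + c • u0 k := by
    intro x hx
    have e1 : (Lk k).mkQ x = (Lk k).mkQ (s ((Lk k).mkQ x)) := (hs' _).symm
    have e2 : x - s ((Lk k).mkQ x) ∈ Lk k := (Submodule.Quotient.eq _).1 e1
    obtain ⟨c, hc⟩ := mem_Lk.1 e2
    refine ⟨⟨_, hx⟩, c, ?_⟩
    have e3 : (x : I27 → k) - (s ((Lk k).mkQ x) : I27 → k) = c • u0 k := hc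
    show (x : I27 → k) = (s ((Lk k).mkQ x) : I27 → k) + c • u0 k
    rw [← e3]
    abel
  have hE3 : ∀ x y z : W0 k, (Lk k).mkQ x ∈ X → (Lk k).mkQ y ∈ X → (Lk k).mkQ z ∈ X →
      tf (cr (x : I27 → k) (y : I27 → k)) (z : I27 → k) = 0 := by
    intro x y z hx hy hz
    obtain ⟨x', c, ex⟩ := hE x hx
    obtain ⟨y', d, ey⟩ := hE y hy
    obtain ⟨z', e, ez⟩ := hE z hz
    rw [tf3_mod ex ey ez (hqt _) (hqt _) (hqt _) (hqq _ _) (hqq _ _) (hqq _ _), ← hF, hF0]
    rfl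
  have h2 : (2 : k) ≠ 0 := two_ne 3 (by norm_num)
  have hsh : ∀ x y : W0 k, (Lk k).mkQ x ∈ X → (Lk k).mkQ y ∈ X → tf (sh (x : I27 → k)) (y : I27 → k) = 0 := by
    intro x y hx hy
    have e1 := hE3 x x y hx hx hy
    rw [cr_self, tf_smul_left] at e1
    exact (mul_eq_zero.1 e1).resolve_left h2
  have hadd : ∀ x y : W0 k, (Lk k).mkQ x ∈ X → (Lk k).mkQ y ∈ X →
      cubicT ((x : I27 → k) + (y : I27 → k)) = cubicT (x : I27 → k) + cubicT (y : I27 → k) := by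
    intro x y hx hy
    rw [N_add, hsh x y hx hy, tf_comm, hsh y x hy hx]
    ring
  -- the kernel of the norm
  let Y : Submodule k (W0 k) :=
    { carrier := {x | (Lk k).mkQ x ∈ X ∧ cubicT (x : I27 → k) = 0}
      zero_mem' := ⟨by rw [map_zero]; exact X.zero_mem, by
        have := N_smul (0 : k) (0 : I27 → k)
        rw [zero_smul] at this
        show cubicT (0 : I27 → k) = 0
        rw [this]
        ring⟩
      add_mem' := fun {x y} hx hy => ⟨by rw [map_add]; exact X.add_mem hx.1 hy.1, by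
        show cubicT ((x : I27 → k) + (y : I27 → k)) = 0
        rw [hadd x y hx.1 hy.1, hx.2, hy.2, add_zero]⟩
      smul_mem' := fun c x hx => ⟨by rw [map_smul]; exact X.smul_mem c hx.1, by
        show cubicT (c • (x : I27 → k)) = 0
        rw [N_smul, hx.2, mul_zero]⟩ }
  have hYm : ∀ x : W0 k, x ∈ Y ↔ (Lk k).mkQ x ∈ X ∧ cubicT (x : I27 → k) = 0 := fun _ => Iff.rfl
  have hY : ∀ g, ∀ x ∈ Y, s0 C.act g x ∈ Y := by
    intro g x hx
    refine ⟨?_, ?_⟩
    · rw [← quotRep_mk (s0 C.act) (Lk k) (Lk_inv C.act)]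
      exact hX g _ hx.1
    · show cubicT (ρ g (x : I27 → k)) = 0
      rw [C.act.N, hx.2]
  have hu : u0 k ∈ W0 k := by rw [mem_W0, tr1_u0, three_zero k]
  let f : Y →ₗ[k] X := LinearMap.codRestrict X ((Lk k).mkQ ∘ₗ Y.subtype) fun y => y.2.1
  have hf : ∀ y : Y, (f y : Vk k) = (Lk k).mkQ (y : W0 k) := fun _ => rfl
  have hfi : Function.Injective f := by
    intro y y' h0
    have e1 : (Lk k).mkQ (y : W0 k) = (Lk k).mkQ (y' : W0 k) := congrArg Subtype.val h0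
    have e0 : (y : W0 k) - (y' : W0 k) ∈ Lk k := (Submodule.Quotient.eq _).1 e1
    obtain ⟨c, hc⟩ := mem_Lk.1 e0
    have e2 := (Y.sub_mem y.2 y'.2).2
    rw [hc, N_smul, N_u0, mul_one] at e2
    have e3 : c = 0 := pow_eq_zero_iff (by norm_num) |>.1 e2
    rw [e3, zero_smul] at hc
    have e4 : (y : W0 k) - (y' : W0 k) = 0 := Subtype.ext hc
    exact Subtype.ext (sub_eq_zero.1 e4)
  have hfs : Function.Surjective f := by
    intro x
    obtain ⟨c, hc⟩ := IsAlgClosed.exists_pow_nat_eq (cubicT (q x)) (n := 3) (by norm_num)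
    have e0 : (Lk k).mkQ (⟨u0 k, hu⟩ : W0 k) = 0 := (Submodule.Quotient.mk_eq_zero _).2 (mem_Lk.2 ⟨1, by rw [one_smul]⟩)
    have e1 : (Lk k).mkQ (s (x : Vk k) + (-c) • (⟨u0 k, hu⟩ : W0 k)) = (x : Vk k) := by
      rw [map_add, map_smul, e0, smul_zero, add_zero, hs']
    have e2 : s (x : Vk k) + (-c) • (⟨u0 k, hu⟩ : W0 k) ∈ Y := by
      refine ⟨by rw [e1]; exact x.2, ?_⟩
      show cubicT ((s (x : Vk k) : I27 → k) + (((-c) • (⟨u0 k, hu⟩ : W0 k) : W0 k) : I27 → k)) = 0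
      rw [hadd _ _ (by rw [hs']; exact x.2) (by rw [map_smul, e0, smul_zero]; exact X.zero_mem)]
      show cubicT (q x) + cubicT ((-c) • u0 k) = 0
      rw [N_smul, N_u0, ← hc]
      ring
    exact ⟨⟨_, e2⟩, Subtype.ext e1⟩
  have hVY : IsV (V := Y) ι 3 (subRep (s0 C.act) Y hY) (1 * 3 ^ i + 1 * 3 ^ j) := by
    refine IsV.iso (V' := Y) ι 3 (LinearEquiv.ofBijective f ⟨hfi, hfs⟩).symm (fun g x => ?_) h'
    apply (LinearEquiv.ofBijective f ⟨hfi, hfs⟩).injective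
    rw [LinearEquiv.apply_symm_apply]
    obtain ⟨y, rfl⟩ := (LinearEquiv.ofBijective f ⟨hfi, hfs⟩).surjective x
    rw [LinearEquiv.symm_apply_apply]
    rfl
  obtain ⟨hY', hVY'⟩ := C.up hVY
  obtain ⟨v', hv'⟩ := IsV.basP ι 3 C.card A1.n A1.m A1.ij A1.i A1.j hVY'
  have e1 := no4 i j hi hj (by omega) _ (BasP.tp hv')
  have e2 : v' 0 0 ≠ 0 := hv'.li.ne_zero ((0, 0) : Fin 2 × Fin 2)
  exact e2 (Subtype.ext (congrFun (congrFun e1 0) 0))

end Cfsg.Agent.R2.F4P.Th
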