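import Cfsg.Agent.R2.F4P.Th.SkF

/-!
# S5931, `p = 3`, the skeleton : dimension 9, `q = 9` (helper17)

* `self_hw` : the highest weight vectors of `V_{3^i + 3^j}` are isotropic;
* `Cx3.nine_two` : no irreducible submodules of dimension 9 if `q = 9`.
-/

set_option autoImplicit false
set_option linter.unusedSectionVars false
set_option linter.unusedVariables false

namespace Cfsg.Agent.R2.F4P.Th

open Cfsg.Lie
open Cfsg.Agent.ChevalleyStructure.E6Min.Tables Cfsg.Agent.ChevalleyStructure.E6Min.Basic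
open Cfsg.Agent.H952.F4 (sh cr tf tr1 u0)
open Cfsg.Agent.H952.F4.Jord
open Cfsg.Agent.H952.F4.FixV (trL trL_apply W0 mem_W0 finrank_W0 exists_tr1_one)
open Cfsg.Agent.H943.SL2Rel Cfsg.Agent.H943.SL2Mod Cfsg.Agent.R2.H28.SL2 Cfsg.Agent.H943.RepAdd
open Cfsg.Agent.R2.F4L

universe u v w

section Gen

variable {k : Type u} [Field k] [DecidableEq k] {K : Type w} [Field K] [Fintype K] [DecidableEq K] {ι : K →+* k}
variable {p : ℕ} [Fact p.Prime] [CharP k p] [CharP K p] {a : ℕ} [IsAlgClosed k]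
variable {V : Type v} [AddCommGroup V] [Module k V] [FiniteDimensional k V]
  {σ : Representation k (Matrix.SpecialLinearGroup (Fin 2) K) V} {P : V →ₗ[k] V →ₗ[k] k}

theorem self_hw (D : Dul σ σ P) (hP : ∀ x y, P x y = P y x) (hF : Fintype.card K = p ^ a) {i j : ℕ}
    (A : Adm p a 1 i 1 j) {Z : Submodule k V} {hZ : ∀ g, ∀ x ∈ Z, σ g x ∈ Z}
    (hV : IsV ι p (subRep σ Z hZ) (1 * p ^ i + 1 * p ^ j)) {z : V} (hz : z ∈ Z) (hu : ∀ t, σ (u t) z = z) : P z z = 0 := by
  obtain ⟨v, hv⟩ := IsV.basP ι p hF A.n A.m A.ij A.i A.j hV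
  have h1 := self11 D hP (BasP.tp hv)
  obtain ⟨m, hm0, -, -, -, huniq⟩ := IsV.hw ι p hV
  obtain ⟨c, hc⟩ := huniq ⟨z, hz⟩ fun t => Subtype.ext (hu t)
  obtain ⟨d, hd⟩ := huniq (v 1 1) fun t => (BasP.toTP hv).top t
  have hv0 : v 1 1 ≠ 0 := hv.li.ne_zero ((1, 1) : Fin 2 × Fin 2)
  have hd0 : d ≠ 0 := by
    rintro rfl
    rw [zero_smul] at hd
    exact hv0 hd
  have e1 : z = (c * d⁻¹) • (v 1 1 : V) := by
    have e2 : z = c • (m : V) := congrArg Subtype.val hc
    have e3 : (v 1 1 : V) = d • (m : V) := congrArg Subtype.val hd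
    rw [e3, smul_smul, mul_assoc, inv_mul_cancel₀ hd0, mul_one]
    exact e2
  rw [e1, map_smul, map_smul, LinearMap.smul_apply]
  have h2 : P (v 1 1 : V) (v 1 1 : V) = 0 := h1
  rw [h2, smul_zero, smul_zero]

end Gen

variable {k : Type u} [Field k] [DecidableEq k] {K : Type w} [Field K] [Fintype K] [DecidableEq K] {ι : K →+* k}
variable {a : ℕ} [CharP k 3] [CharP K 3] [IsAlgClosed k]
variable {ρ : Representation k (Matrix.SpecialLinearGroup (Fin 2) K) (I27 → k)}

/-- **no irreducible submodules of dimension 9, `q = 9`** -/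
theorem Cx3.nine_two (C : Cx3 K a ρ) (ha2 : a = 2) (no3 : ∀ i, i < a → ∀ x, TS ι 3 ρ 2 i x → x = 0)
    (no4 : ∀ i j, i < a → j < a → i ≠ j → ∀ x, TP ι 3 ρ 1 i 1 j x → x = 0)
    {Y : Submodule k (Vk k)} {hY : ∀ g, ∀ x ∈ Y, sV C.act g x ∈ Y} {b : ℕ}
    (h : IsV ι 3 (subRep (sV C.act) Y hY) b) (h9 : (Bf k b).card = 9) : False := by
  have D := dulV C.act
  have hP := PV_symm (k := k)
  have h25 : Module.finrank k (Vk k) = 25 := finrank_Vk
  have hq : Fintype.card K = 9 := by rw [C.card, ha2]; norm_num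
  have hlt := C.lt h
  have hb8 : b = Fintype.card K - 1 := by
    obtain ⟨i, j, hij, hb⟩ := (card3 k b).2.2.2.2.2.1 h9
    have hj : j < a := C.digit (c := 2) (by norm_num) (by rw [hb]; exact Nat.le_add_left _ _) hlt
    have e1 : j = 1 := by omega
    have e2 : i = 0 := by omega
    rw [hb, e1, e2, hq]
    norm_num
  have hYf := IsV.finrank ι h
  rcases nd_or D h with hn | hn
  swap
  · -- isotropic
    obtain ⟨B, D', -⟩ := D.sub hY
    have h1 : IsV ι 3 (quotRep (sV C.act) (orth (PV k) Y) (D.orth_inv hY)) b := IsV.dual ι 3 h D'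
    rw [hb8] at h1
    obtain ⟨X, hX, hVX, hle⟩ := st_split C.card C.fixV (D.orth_inv hY) h1
    rw [← hb8] at hVX
    have h2 := C.nine_uniq no3 hVX h h9 h9
    rw [h2] at hle
    exact hle hn
  · -- nondegenerate
    have hV' := nd_orth D hP hn
    have hr := rank_orth D hY
    have key : ∀ (W : Submodule k (Vk k)) (hW : ∀ g, ∀ x ∈ W, sV C.act g x ∈ W), W ≤ orth (PV k) Y → W ≠ ⊥ →
        ∃ (X : Submodule k (Vk k)) (hX : ∀ g, ∀ x ∈ X, sV C.act g x ∈ X), X ≤ W ∧
          IsV ι 3 (subRep (sV C.act) X hX) (1 * 3 ^ 0 + 1 * 3 ^ 1) := by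
      intro W hW hWY hW0
      obtain ⟨X, hX, c, hle, hVX⟩ := exists_irr (ι := ι) (p := 3) hW hW0
      obtain ⟨-, hc⟩ := C.dims no3 hVX
      have hclt := C.lt hVX
      refine ⟨X, hX, hle, ?_⟩
      rcases hc with hc | hc | hc | hc
      · obtain ⟨i, j, hij, hb⟩ := (card3 k c).2.2.2.1 hc
        have hj : j < a := C.digit (c := 1) le_rfl (by rw [one_mul, hb]; exact Nat.le_add_left _ _) hclt
        have e1 : j = 1 := by omega
        have e2 : i = 0 := by omega
        rw [e1, e2] at hb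
        rw [one_mul, one_mul, ← hb]
        exact hVX
      · exfalso
        have h2 := C.nine_uniq no3 hVX h hc h9
        subst h2
        have h3 : X ⊓ orth (PV k) X = ⊥ := hn
        rw [inf_eq_left.2 (hle.trans hWY)] at h3
        exact IsV.ne_bot hVX h3
      · exfalso
        obtain ⟨i, j, l, hij, hli, hlj, hb⟩ := (card3 k c).2.2.2.2.2.2 hc
        have hj : j < a := C.digit (c := 1) le_rfl (by rw [one_mul, hb]; exact (Nat.le_add_left _ _).trans (Nat.le_add_right _ _)) hclt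
        have hl : l < a := C.digit (c := 2) (by norm_num) (by rw [hb]; exact Nat.le_add_left _ _) hclt
        omega
      · exact (C.no_sixteen hVX hc).elim
    have h16 : Module.finrank k (orth (PV k) Y) = 16 := by omega
    obtain ⟨X, hX, hXle, hVX⟩ := key _ (D.orth_inv hY) le_rfl (by
      intro h0
      rw [h0, finrank_bot] at h16
      omega)
    have hc4 : (Bf k (1 * 3 ^ 0 + 1 * 3 ^ 1)).card = 4 := by
      rw [one_mul, one_mul]
      exact card_pair k 0 1 (by norm_num)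
    have hXn := C.nd_four no4 hVX hc4
    obtain ⟨hWn, hWr⟩ := nd_inf D hX hXn hV' hXle hP
    have hXf := IsV.finrank ι hVX
    obtain ⟨Z, hZ, hZle, hVZ⟩ := key (orth (PV k) Y ⊓ orth (PV k) X) (inf_inv (D.orth_inv hY) (D.orth_inv hX))
      inf_le_left (by
        intro h0
        rw [h0, finrank_bot] at hWr
        omega)
    have A : Adm 3 a 1 0 1 1 := ⟨by norm_num, by norm_num, by norm_num, by omega, by omega⟩
    refine two_copies D hP hVX hVZ (fun x hx y hy => (hZle hy).2 x hx) ?_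
      (fun Z' hZ' hVZ' z hz hu => self_hw D hP C.card A hVZ' hz hu) (fun Z' hZ' hVZ' => C.nd_four no4 hVZ' hc4)
    have h3 : X ⊓ orth (PV k) X = ⊥ := hXn
    rw [eq_bot_iff, ← h3]
    exact inf_le_inf_left X (hZle.trans inf_le_right)

end Cfsg.Agent.R2.F4P.Th
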