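import Cfsg.Agent.R2.F4P.Th.SkG

/-!
# S5931, `p = 3`, the skeleton : dimension 9, `q > 9`, I (helper17)

* `isV_of_card`, `hw_side` : composition factors and highest weight vectors;
* `Cx3.sh_top` : `y_22 ^ # = 0` for the tuples of type `(2, 0; 2, d)`.
-/

set_option autoImplicit false
set_option linter.unusedSectionVars false
set_option linter.unusedVariables false

namespace Cfsg.Agent.R2.F4P.Th

open Cfsg.Lie
open Cfsg.Agent.ChevalleyStructure.E6Min.Tables Cfsg.Agent.ChevalleyStructure.E6Min.Basic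
open Cfsg.Agent.H952.F4 (sh cr tf tr1 u0)
open Cfsg.Agent.H952.F4.Jord
open Cfsg.Agent.H952.F4.FixV (trL trL_apply W0 mem_W0 finrank_W0 exists_tr1_one)
open Cfsg.Agent.H943.SL2Rel Cfsg.Agent.H943.SL2Mod Cfsg.Agent.R2.H28.SL2 Cfsg.Agent.H943.RepAdd
open Cfsg.Agent.R2.F4L

universe u v w

section Mul

theorem sum_ge2 {s : Multiset ℕ} (f : ℕ → ℕ) {b c : ℕ} (hb : 2 ≤ s.count b) (hc : c ∈ s) (hbc : c ≠ b) :
    2 * f b + f c ≤ (s.map f).sum := by
  have h1 : Multiset.replicate 2 b + {c} ≤ s := by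
    rw [Multiset.le_iff_count]
    intro x
    rw [Multiset.count_add, Multiset.count_replicate, Multiset.count_singleton]
    have h2 := Multiset.one_le_count_iff_mem.2 hc
    by_cases h3 : b = x
    · subst h3
      rw [if_pos rfl, if_neg (Ne.symm hbc)]
      omega
    · rw [if_neg h3]
      by_cases h4 : x = c
      · subst h4
        rw [if_pos rfl]
        omega
      · rw [if_neg h4]
        omega
  obtain ⟨t, rfl⟩ := Multiset.le_iff_exists_add.1 h1
  rw [Multiset.map_add, Multiset.map_add, Multiset.map_replicate, Multiset.sum_add, Multiset.sum_add,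
    Multiset.sum_replicate, Multiset.map_singleton, Multiset.sum_singleton, smul_eq_mul]
  omega

theorem sum_ge1 {s : Multiset ℕ} (f : ℕ → ℕ) {b c : ℕ} (hb : b ∈ s) (hc : c ∈ s) (hbc : c ≠ b) :
    f b + f c ≤ (s.map f).sum := by
  obtain ⟨t, rfl⟩ := Multiset.exists_cons_of_mem hb
  have h2 : c ∈ t := (Multiset.mem_cons.1 hc).resolve_left hbc
  obtain ⟨t', rfl⟩ := Multiset.exists_cons_of_mem h2
  rw [Multiset.map_cons, Multiset.map_cons, Multiset.sum_cons, Multiset.sum_cons]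
  omega

theorem sum_ge0 {s : Multiset ℕ} (f : ℕ → ℕ) {b : ℕ} (hb : b ∈ s) : f b ≤ (s.map f).sum := by
  obtain ⟨t, rfl⟩ := Multiset.exists_cons_of_mem hb
  rw [Multiset.map_cons, Multiset.sum_cons]
  omega

end Mul

section Gen

variable {k : Type u} [Field k] [DecidableEq k] {K : Type w} [Field K] [Fintype K] [DecidableEq K] {ι : K →+* k}
variable {a : ℕ} [CharP k 3] [CharP K 3] [IsAlgClosed k]
variable {V : Type v} [AddCommGroup V] [Module k V] [FiniteDimensional k V]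
  {σ : Representation k (Matrix.SpecialLinearGroup (Fin 2) K) V} {P : V →ₗ[k] V →ₗ[k] k}

/-- a module as large as one of its factors -/
theorem isV_of_card {c : ℕ} (hc : c ∈ cf (Sy.{u, v, w} ι 3) σ) (hd : Module.finrank k V = (Bf k c).card) : IsV ι 3 σ c := by
  refine irr_of_cf (Sy.{u, v, w} ι 3) (?_ : cf (Sy.{u, v, w} ι 3) σ = {c})
  have h1 := finrank_cf.{u, v, w} ι 3 _ V σ le_rfl
  obtain ⟨t, ht⟩ := Multiset.exists_cons_of_mem hc
  rw [ht, Multiset.map_cons, Multiset.sum_cons] at h1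
  rcases Multiset.empty_or_exists_mem t with h2 | ⟨d, hd'⟩
  · rw [ht, h2]
    rfl
  · have h3 := sum_ge0 (fun b => (Bf k b).card) hd'
    have h4 := card_pos k d
    omega

theorem two_factors {W : Submodule k V} {hW : ∀ g, ∀ x ∈ W, σ g x ∈ W} {b c : ℕ}
    (hb : b ∈ cf (Sy.{u, v, w} ι 3) (subRep σ W hW)) (hc : c ∈ cf (Sy.{u, v, w} ι 3) (subRep σ W hW)) (hbc : c ≠ b) :
    (Bf k b).card + (Bf k c).card ≤ Module.finrank k W := by
  rw [finrank_cf.{u, v, w} ι 3 _ W (subRep σ W hW) le_rfl]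
  exact sum_ge1 (fun b => (Bf k b).card) hb hc hbc

theorem mem_compl {W X : Submodule k V} {hW : ∀ g, ∀ x ∈ W, σ g x ∈ W} {hX : ∀ g, ∀ x ∈ X, σ g x ∈ X} (h : IsCompl W X)
    {c : ℕ} (hc : c ∈ cf (Sy.{u, v, w} ι 3) σ) :
    c ∈ cf (Sy.{u, v, w} ι 3) (subRep σ W hW) ∨ c ∈ cf (Sy.{u, v, w} ι 3) (subRep σ X hX) := by
  rw [cf_sup hW hX h] at hc
  exact Multiset.mem_add.1 hc

/-- highest weight vectors and decompositions -/
theorem hw_side (hF : Fintype.card K = 3 ^ a) {W X : Submodule k V} {hW : ∀ g, ∀ x ∈ W, σ g x ∈ W}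
    {hX : ∀ g, ∀ x ∈ X, σ g x ∈ X} (h : IsCompl W X)
    {x : V} {c : ℕ} (hu : ∀ t, σ (u t) x = x) (hh : ∀ a : Kˣ, σ (Cfsg.Agent.H943.SL2Rel.h a) x = ι a ^ c • x)
    (hc : c < Fintype.card K) (hc0 : c ≠ 0) (hc1 : c ≠ Fintype.card K - 1)
    (hn : c ∉ cf (Sy.{u, v, w} ι 3) (subRep σ X hX)) : x ∈ W := by
  have h1 : x ∈ W ⊔ X := by
    rw [h.sup_eq_top]
    trivial
  obtain ⟨y, hy, z, hz, e⟩ := Submodule.mem_sup.1 h1
  have key : ∀ y' ∈ W, ∀ z' ∈ X, y' + z' = y + z → z' = z := by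
    intro y' hy' z' hz' e'
    have h2 : z' - z = y - y' := by
      rw [sub_eq_sub_iff_add_eq_add, add_comm z', e', add_comm]
    have h3 : z' - z ∈ W ⊓ X := ⟨by rw [h2]; exact W.sub_mem hy hy', X.sub_mem hz' hz⟩
    rw [h.inf_eq_bot, Submodule.mem_bot] at h3
    exact sub_eq_zero.1 h3
  by_cases hz0 : z = 0
  · rw [← e, hz0, add_zero]
    exact hy
  exfalso
  have hzu : ∀ t, σ (u t) z = z := fun t => by
    refine key _ (hW (u t) y hy) _ (hX (u t) z hz) ?_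
    rw [← map_add, e, hu]
  have hzh : ∀ a : Kˣ, σ (Cfsg.Agent.H943.SL2Rel.h a) z = ι a ^ c • z := fun a => by
    have ha : (ι (a : K) ^ c) ≠ 0 := pow_ne_zero _ ((map_ne_zero ι).2 a.ne_zero)
    have h2 := key ((ι (a : K) ^ c)⁻¹ • σ (Cfsg.Agent.H943.SL2Rel.h a) y) (W.smul_mem _ (hW _ y hy))
      ((ι (a : K) ^ c)⁻¹ • σ (Cfsg.Agent.H943.SL2Rel.h a) z) (X.smul_mem _ (hX _ z hz)) (by
        rw [← smul_add, ← map_add, e, hh, smul_smul, inv_mul_cancel₀ ha, one_smul])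
    have h3 := congrArg (fun v => (ι (a : K) ^ c) • v) h2
    rwa [smul_smul, mul_inv_cancel₀ ha, one_smul] at h3
  have hz0' : (⟨z, hz⟩ : X) ≠ 0 := fun h0 => hz0 (congrArg Subtype.val h0)
  obtain ⟨b, hb, hb'⟩ := hw_mem_cf.{u, v, w} (c := c) (ρ := subRep σ X hX) ι 3 hz0'
    (fun t => Subtype.ext (hzu t)) (fun b => Subtype.ext (hzh b))
  have h2 : b < Fintype.card K := by
    rw [hF]
    exact cf_lt ι 3 hF _ b hb
  rw [label_eq ι h2 hc hc0 hc1 hb'] at hb
  exact hn hb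

end Gen

end Cfsg.Agent.R2.F4P.Th
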