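import Cfsg.Agent.R2.F4P.Th.SkH

/-!
# S5931, `p = 3`, the skeleton : dimension 9, `q > 9`, II (helper17)

* `Cx3.sh_top` : `y_22 ^ # = 0` for the tuples of type `(2, 0; 2, d)`.
-/

set_option autoImplicit false
set_option linter.unusedSectionVars false
set_option linter.unusedVariables false

namespace Cfsg.Agent.R2.F4P.Th

open Cfsg.Lie
open Cfsg.Agent.ChevalleyStructure.E6Min.Tables Cfsg.Agent.ChevalleyStructure.E6Min.Basic
open Cfsg.Agent.H952.F4 (sh cr tf tr1 u0)
open Cfsg.Agent.H952.F4.Jord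
open Cfsg.Agent.H952.F4.FixV (trL trL_apply W0 mem_W0 finrank_W0 exists_tr1_one)
open Cfsg.Agent.H943.SL2Rel Cfsg.Agent.H943.SL2Mod Cfsg.Agent.R2.H28.SL2 Cfsg.Agent.H943.RepAdd
open Cfsg.Agent.R2.F4L

universe u v w

theorem num1 {a d : ℕ} (ha3 : 3 ≤ a) (hd : 1 ≤ d) (hd2 : 2 * d ≤ a) : 4 + 4 * 3 ^ d < 3 ^ a - 1 := by
  rcases Nat.lt_or_ge d 2 with h | h
  · have h1 : d = 1 := by omega
    have h2 : 3 ^ 3 ≤ 3 ^ a := Nat.pow_le_pow_right (by norm_num) ha3
    rw [h1]
    omega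
  · have h1 : 3 ^ 2 ≤ 3 ^ d := Nat.pow_le_pow_right (by norm_num) h
    have h2 : 3 ^ (2 * d) ≤ 3 ^ a := Nat.pow_le_pow_right (by norm_num) hd2
    have h3 : 3 ^ (2 * d) = 3 ^ d * 3 ^ d := by rw [two_mul, pow_add]
    have h4 : 9 * 3 ^ d ≤ 3 ^ d * 3 ^ d := Nat.mul_le_mul_right _ h1
    omega

section Card

variable (k : Type*) [Field k] [DecidableEq k] [CharP k 3]

theorem card_c1 : (Bf k (4 + 4 * 3 ^ 1)).card = 12 := by
  have h1 := card_Bf_mul k 3 0 (r := 1) (by norm_num)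
  have h2 := card_Bf_mul k 3 1 (r := 2) (by norm_num)
  have h3 := card_Bf_mul k 3 5 (r := 1) (by norm_num)
  rw [card_Bf_zero] at h1
  norm_num at h1 h2 h3 ⊢
  omega

theorem card_c2 (e : ℕ) : (Bf k (4 + 4 * 3 ^ (e + 2))).card = 16 := by
  have h1 := card_pair k e (e + 1) (by omega)
  have h2 := card_Bf_mul k 3 (3 ^ e + 3 ^ (e + 1)) (r := 1) (by norm_num)
  have h3 := card_Bf_mul k 3 (3 * (3 ^ e + 3 ^ (e + 1)) + 1) (r := 1) (by norm_num)
  have e1 : 4 + 4 * 3 ^ (e + 2) = 3 * (3 * (3 ^ e + 3 ^ (e + 1)) + 1) + 1 := by ring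
  rw [e1, h3, h2, h1]

end Card

variable {k : Type u} [Field k] [DecidableEq k] {K : Type w} [Field K] [Fintype K] [DecidableEq K] {ι : K →+* k}
variable {a : ℕ} [CharP k 3] [CharP K 3] [IsAlgClosed k]
variable {ρ : Representation k (Matrix.SpecialLinearGroup (Fin 2) K) (I27 → k)}

/-- traces of weight vectors -/
theorem Cx3.wt_tr (C : Cx3 K a ρ) (ι : K →+* k) {x : I27 → k} {c : ℕ} (hx : ∀ b : Kˣ, ρ (h b) x = ι b ^ c • x) (hc : 0 < c)
    (hc1 : c < Fintype.card K - 1) : tr1 x = 0 := by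
  obtain ⟨lam, hlam⟩ := exists_prim (k := k) ι 0 3
  rw [pow_zero, pow_one] at hlam
  have h1 := C.act.tr (Cfsg.Agent.H943.SL2Rel.h lam) x
  rw [hx, tr1_smul] at h1
  have h2 : (ι lam ^ c - 1) * tr1 x = 0 := by linear_combination h1
  refine (mul_eq_zero.1 h2).resolve_left (sub_ne_zero.2 fun h3 => ?_)
  have h4 := Nat.le_of_dvd hc ((hlam.pow_eq_one_iff_dvd c).1 h3)
  omega

/-- **the twelve-dimensional case** -/
theorem Cx3.sh_top1 (C : Cx3 K a ρ) (ha3 : 3 ≤ a) {y : ℕ → ℕ → I27 → k} (hy : TP ι 3 ρ 2 0 2 1 y)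
    {W : Submodule k (Vk k)} {hW : ∀ g, ∀ x ∈ W, sV C.act g x ∈ W} (hVW : IsV ι 3 (subRep (sV C.act) W hW) 16)
    (hWn : Nd (PV k) W) (hm0 : sh (y 2 2) ∈ W0 k) (hmW : (Lk k).mkQ (⟨sh (y 2 2), hm0⟩ : W0 k) ∈ W)
    (hne : (Lk k).mkQ (⟨sh (y 2 2), hm0⟩ : W0 k) ≠ 0) : False := by
  have D := dulV C.act
  have h27 : 27 ≤ Fintype.card K := by
    rw [C.card]
    exact (by norm_num : 27 = 3 ^ 3) ▸ Nat.pow_le_pow_right (by norm_num) ha3
  have hw22 : ∀ b : Kˣ, ρ (h b) (y 2 2) = ι b ^ 8 • y 2 2 := fun b => by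
    rw [hy.h 2 le_rfl 2 le_rfl]
    congr 1
    simp only [pow_zero, pow_one, Nat.sub_self, mul_one]
    rw [← pow_mul, ← pow_add]
  have hu22 : ∀ t, ρ (u t) (y 2 2) = y 2 2 := fun t => hy.top t
  set x := (Lk k).mkQ (⟨sh (y 2 2), hm0⟩ : W0 k) with hx
  have hxu : ∀ t, sV C.act (u t) x = x := fun t => by
    rw [hx, quotRep_mk]
    congr 1
    apply Subtype.ext
    show ρ (u t) (sh (y 2 2)) = sh (y 2 2)
    rw [C.act.sh, hu22]
  have hxh : ∀ b : Kˣ, sV C.act (h b) x = ι b ^ 16 • x := fun b => by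
    rw [hx, quotRep_mk, ← map_smul]
    congr 1
    apply Subtype.ext
    show ρ (h b) (sh (y 2 2)) = ι b ^ 16 • sh (y 2 2)
    rw [C.act.sh, hw22, sh_smul, ← pow_mul]
  refine br D hVW hmW hne hxu hxh ?_ ?_ hWn
  · -- the weight 32
    obtain ⟨lam, hlam⟩ := exists_prim (k := k) ι 0 3
    rw [pow_zero, pow_one] at hlam
    have h1 := D.inv (h lam) x x
    rw [hxh, map_smul, map_smul, LinearMap.smul_apply, smul_eq_mul, smul_eq_mul] at h1
    have h2 : (ι lam ^ 32 - 1) * PV k x x = 0 := by linear_combination h1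
    refine (mul_eq_zero.1 h2).resolve_left (sub_ne_zero.2 fun h3 => ?_)
    have h4 := (hlam.pow_eq_one_iff_dvd 32).1 h3
    have h5 := Nat.le_of_dvd (by norm_num) h4
    have ha : a = 3 := by
      by_contra hne'
      have h6 : 3 ^ 4 ≤ 3 ^ a := Nat.pow_le_pow_right (by norm_num) (by omega)
      rw [C.card] at h5
      omega
    rw [C.card, ha] at h4
    revert h4
    norm_num
  · -- the divided power
    obtain ⟨xl, hxl⟩ := (Lk k).mkQ_surjective (sV C.act w x)
    -- `D_2` of the lowest weight vector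
    have hD : Dm ι (sV C.act) 2 (sV C.act w x) = 0 := by
      obtain ⟨m', -, -, -, -, hmD, -, huniq⟩ := IsV.hw2 ι 3 hVW
      obtain ⟨c, hc⟩ := huniq ⟨x, hmW⟩ fun t => Subtype.ext (hxu t)
      have h1 := hmD 2 (by norm_num) (by omega) (by decide)
      have h2 := Dm_comm ι (subRep (sV C.act) W hW) (sV C.act) W.subtype (fun _ _ => rfl) 2
        (subRep (sV C.act) W hW w (⟨x, hmW⟩ : W))
      rw [hc, map_smul, map_smul, h1, smul_zero, map_zero, ← map_smul, ← hc] at h2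
      exact h2.symm
    have hz0 : tr1 (cr (y 0 2) (y 2 2)) = 0 := by
      refine C.wt_tr ι (c := 12) (fun b => ?_) (by norm_num) (by omega)
      have hb : ι (b : K) ≠ 0 := (map_ne_zero ι).2 b.ne_zero
      rw [C.act.cr, hw22, hy.h 0 (by norm_num) 2 le_rfl, cr_smul_left, cr_smul_right, smul_smul]
      congr 1
      simp only [pow_zero, pow_one, Nat.sub_self, Nat.sub_zero, mul_one, one_mul]
      field_simp
    have hDl : tf (cr (y 0 2) (y 2 2)) (Dm ι ρ 2 (xl : I27 → k)) = 0 := by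
      have h1 := Dm_comm ι (s0 C.act) (sV C.act) (Lk k).mkQ (fun _ _ => rfl) 2 xl
      rw [hxl, hD] at h1
      have h2 : Dm ι (s0 C.act) 2 xl ∈ Lk k := (Submodule.Quotient.mk_eq_zero _).1 h1
      obtain ⟨c, hc⟩ := mem_Lk.1 h2
      have h3 := Dm_comm ι (s0 C.act) ρ (W0 k).subtype (fun _ _ => rfl) 2 xl
      have h4 : Dm ι ρ 2 (xl : I27 → k) = c • u0 k := by
        rw [← hc]
        exact h3.symm
      rw [h4, tf_comm, tf_smul_left, tf_u0, hz0, mul_zero]
    -- the coefficient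
    have hB : tf (cr (y 2 2) (y 2 2)) (xl : I27 → k) = 0 := by
      have e1 : ∀ t : K, tf (cr (y 0 2) (y 2 2)) (ρ (u t) (xl : I27 → k)) =
          tf (cr (y 0 2) (y 2 2)) (xl : I27 → k) - 2 * ι t * tf (cr (y 1 2) (y 2 2)) (xl : I27 → k) +
            ι t ^ 2 * tf (cr (y 2 2) (y 2 2)) (xl : I27 → k) := by
        intro t
        have e2 := C.act.tf (u (-t)) (cr (y 0 2) (y 2 2)) (ρ (u t) (xl : I27 → k))
        have e3 : ρ (u (-t)) (ρ (u t) (xl : I27 → k)) = xl := by
          rw [← Module.End.mul_apply, ← map_mul, ← u_add, neg_add_cancel, u_zero, map_one, Module.End.one_apply]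
        have e4 : ρ (u (-t)) (y 0 2) = y 0 2 + (2 * ι (-t)) • y 1 2 + (ι (-t) ^ 2) • y 2 2 := by
          rw [hy.u 0 (by norm_num) 2 le_rfl]
          simp only [Nat.sub_zero, Nat.sub_self, Finset.sum_range_succ, Finset.sum_range_zero, zero_add, Nat.choose_zero_right,
            Nat.choose_self, Nat.cast_one, pow_zero, pow_one, one_mul, mul_one, one_smul, add_zero]
          norm_num [Nat.choose]
        rw [e3, C.act.cr, hu22, e4, cr_add_left, cr_add_left, cr_smul_left, cr_smul_left, tf_add_left, tf_add_left,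
          tf_smul_left, tf_smul_left, map_neg] at e2
        linear_combination -e2
      rw [Dm_apply] at hDl
      have e5 : tf (cr (y 0 2) (y 2 2)) (-∑ t : K, ι t ^ (Fintype.card K - 1 - 2) • ρ (u t) (xl : I27 → k)) =
          -∑ t : K, ι t ^ (Fintype.card K - 1 - 2) * tf (cr (y 0 2) (y 2 2)) (ρ (u t) (xl : I27 → k)) := by
        have e6 : ∀ z : I27 → k, tf (cr (y 0 2) (y 2 2)) z = Cfsg.Agent.R2.GEO.tfB k (cr (y 0 2) (y 2 2)) z := fun _ => rfl
        rw [e6, map_neg, map_sum]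
        congr 1
        exact Finset.sum_congr rfl fun t _ => by rw [map_smul, smul_eq_mul, ← e6]
      rw [e5] at hDl
      have e7 : ∀ t : K, ι t ^ (Fintype.card K - 1 - 2) * tf (cr (y 0 2) (y 2 2)) (ρ (u t) (xl : I27 → k)) =
          ι t ^ (Fintype.card K - 1 - 2) * tf (cr (y 0 2) (y 2 2)) (xl : I27 → k) -
          ι t ^ (Fintype.card K - 1 - 1) * (2 * tf (cr (y 1 2) (y 2 2)) (xl : I27 → k)) +
          ι t ^ (Fintype.card K - 1) * tf (cr (y 2 2) (y 2 2)) (xl : I27 → k) := by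
        intro t
        rw [e1]
        have e8 : ι t ^ (Fintype.card K - 1 - 1) = ι t ^ (Fintype.card K - 1 - 2) * ι t := by
          rw [← pow_succ]
          congr 1
          omega
        have e9 : ι t ^ (Fintype.card K - 1) = ι t ^ (Fintype.card K - 1 - 2) * ι t ^ 2 := by
          rw [← pow_add]
          congr 1
          omega
        rw [e8, e9]
        ring
      rw [Finset.sum_congr rfl fun t _ => e7 t, Finset.sum_add_distrib, Finset.sum_sub_distrib, ← Finset.sum_mul,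
        ← Finset.sum_mul, ← Finset.sum_mul, psum ι (by omega), psum ι (by omega), psum ι (by omega), if_neg (by omega),
        if_neg (by omega), if_pos rfl] at hDl
      linear_combination hDl
    rw [← hxl, hx, PV_mk]
    rw [cr_self, tf_smul_left] at hB
    exact (mul_eq_zero.1 hB).resolve_left (two_ne 3 (by norm_num))

/-- **the adjoint of the highest weight vector** -/
theorem Cx3.sh_top (C : Cx3 K a ρ) (ha3 : 3 ≤ a) (no3 : ∀ i, i < a → ∀ x, TS ι 3 ρ 2 i x → x = 0)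
    (no4 : ∀ i j, i < a → j < a → i ≠ j → ∀ x, TP ι 3 ρ 1 i 1 j x → x = 0) {d : ℕ} (hd : 1 ≤ d) (hd2 : 2 * d ≤ a)
    {y : ℕ → ℕ → I27 → k} (hy : TP ι 3 ρ 2 0 2 d y) (hy0 : y ≠ 0) : sh (y 2 2) = 0 := by
  by_contra hm
  have D := dulV C.act
  have hP := PV_symm (k := k)
  have h25 : Module.finrank k (Vk k) = 25 := finrank_Vk
  have hnum := num1 ha3 hd hd2
  have A : Adm 3 a 2 0 2 d := ⟨by norm_num, by norm_num, by omega, by omega, by omega⟩
  have hcard := C.card
  have h3d : 3 ≤ 3 ^ d := by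
    calc 3 = 3 ^ 1 := by norm_num
      _ ≤ 3 ^ d := Nat.pow_le_pow_right (by norm_num) hd
  obtain ⟨c, hc⟩ : ∃ c, c = 4 + 4 * 3 ^ d := ⟨_, rfl⟩
  have hmh : ∀ b : Kˣ, ρ (h b) (sh (y 2 2)) = ι b ^ c • sh (y 2 2) := fun b => by
    rw [C.act.sh, hy.h 2 le_rfl 2 le_rfl, sh_smul, hc]
    congr 1
    simp only [pow_zero, pow_one, Nat.sub_self, mul_one]
    rw [← pow_mul, ← pow_add, ← pow_mul]
    congr 1
    ring
  have hmu : ∀ t, ρ (u t) (sh (y 2 2)) = sh (y 2 2) := fun t => by rw [C.act.sh, hy.top]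
  have htr := C.wt_tr ι hmh (by omega) (by omega)
  have hm0 : sh (y 2 2) ∈ W0 k := (mem_W0 _).2 htr
  set x := (Lk k).mkQ (⟨sh (y 2 2), hm0⟩ : W0 k) with hx
  have hxu : ∀ t, sV C.act (u t) x = x := fun t => by
    rw [hx, quotRep_mk]
    congr 1
    exact Subtype.ext (hmu t)
  have hxh : ∀ b : Kˣ, sV C.act (h b) x = ι b ^ c • x := fun b => by
    rw [hx, quotRep_mk, ← map_smul]
    congr 1
    exact Subtype.ext (hmh b)
  have hx0 : x ≠ 0 := by
    intro h0
    obtain ⟨e, he⟩ := mem_Lk.1 ((Submodule.Quotient.mk_eq_zero _).1 h0)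
    have he' : sh (y 2 2) = e • u0 k := he
    have hne : e ≠ 0 := by
      rintro rfl
      rw [zero_smul] at he'
      exact hm he'
    obtain ⟨lam, hlam⟩ := exists_prim (k := k) ι 0 3
    rw [pow_zero, pow_one] at hlam
    have h1 := hmh lam
    rw [he', map_smul, C.act.u0, smul_smul] at h1
    have h2 : (e - ι lam ^ c * e) • u0 k = 0 := by rw [sub_smul, ← h1, sub_self]
    have h3 := (smul_eq_zero.1 h2).resolve_right u0_ne
    have h4 : ι lam ^ c = 1 := by
      have h5 : e * (ι lam ^ c - 1) = 0 := by linear_combination -h3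
      exact sub_eq_zero.1 ((mul_eq_zero.1 h5).resolve_left hne)
    have h5 := Nat.le_of_dvd (by omega) ((hlam.pow_eq_one_iff_dvd c).1 h4)
    omega
  -- the label `c`
  have hcf : c ∈ cf (Sy.{u, u, w} ι 3) (sV C.act) := by
    obtain ⟨b, hb, hb'⟩ := hw_mem_cf.{u, u, w} (c := c) (ρ := sV C.act) ι 3 hx0 hxu hxh
    have h2 : b < Fintype.card K := by
      rw [hcard]
      exact cf_lt ι 3 C.card _ b hb
    rwa [label_eq ι h2 (by omega) (by omega) (by omega) hb'] at hb
  have hc12 : 12 ≤ (Bf k c).card := by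
    rcases Nat.lt_or_ge d 2 with h | h
    · have : d = 1 := by omega
      rw [hc, this, card_c1]
    · obtain ⟨e, rfl⟩ : ∃ e, d = e + 2 := ⟨d - 2, by omega⟩
      rw [hc, card_c2]
      norm_num
  -- the nine-dimensional submodule
  have hyW := C.tp_W0 A (by norm_num) hy
  have hyV := C.tpV hy hyW
  have hyV0 : (fun s s' => (Lk k).mkQ (⟨y s s', hyW s s'⟩ : W0 k)) ≠ 0 := by
    intro h0
    have h1 := congrFun (congrFun h0 2) 2
    obtain ⟨e, he⟩ := mem_Lk.1 ((Submodule.Quotient.mk_eq_zero _).1 h1)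
    have he' : y 2 2 = e • u0 k := he
    have hz : TP ι 3 ρ 2 0 2 d y := hy
    have h2 : ρ w (y 2 2) = y 2 2 := by rw [he', map_smul, C.act.u0]
    have h3 : ∀ t, ρ (u t) (y 0 0) = y 0 0 := by
      intro t
      have h4 := hy.w 2 le_rfl 2 le_rfl
      rw [h2] at h4
      have h5 : y 0 0 = y 2 2 := by
        rw [h4]
        norm_num
      rw [h5, hy.top]
    obtain ⟨hX, hV⟩ := hy.isV C.card A hy0
    obtain ⟨m', -, -, -, -, huniq⟩ := IsV.hw ι 3 hV
    obtain ⟨e1, h6⟩ := huniq ⟨y 0 0, mem_Sp y 0 0⟩ fun t => Subtype.ext (h3 t)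
    have h7 : ρ (h (1 : Kˣ)) (y 0 0) = y 0 0 := by rw [h_one, map_one]; rfl
    -- `y_22` is a scalar : the tuple is trivial
    have h8 := (congrArg (fun v => tr1 v) he')
    obtain ⟨lam, hlam⟩ := exists_prim (k := k) ι 0 3
    rw [pow_zero, pow_one] at hlam
    have h9 := hy.h 2 le_rfl 2 le_rfl lam
    rw [he', map_smul, C.act.u0] at h9
    have h10 : (e - ι lam ^ (2 + 2 * 3 ^ d) * e) • u0 k = 0 := by
      rw [sub_smul, mul_smul, sub_eq_zero]
      refine h9.trans ?_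
      congr 1
      simp only [pow_zero, pow_one, Nat.sub_self, mul_one]
      rw [← pow_mul, ← pow_add]
      congr 1
      ring
    have h11 := (smul_eq_zero.1 h10).resolve_right u0_ne
    have h12 : e * (ι lam ^ (2 + 2 * 3 ^ d) - 1) = 0 := by linear_combination -h11
    rcases mul_eq_zero.1 h12 with h13 | h13
    · rw [h13, zero_smul] at he'
      exact hy0 (hy.zero_of C.card A le_rfl le_rfl he')
    · have h14 := Nat.le_of_dvd (by omega) ((hlam.pow_eq_one_iff_dvd _).1 (sub_eq_zero.1 h13))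
      omega
  obtain ⟨hY, hVY⟩ := hyV.isV C.card A hyV0
  obtain ⟨Y, hYd⟩ : ∃ Y, Y = Sp (k := k) fun s s' => (Lk k).mkQ (⟨y s s', hyW s s'⟩ : W0 k) := ⟨_, rfl⟩
  subst hYd
  have hb9 : (Bf k (2 * 3 ^ 0 + 2 * 3 ^ d)).card = 9 := card22 A.ij A.i A.j k
  have hcb : c ≠ 2 * 3 ^ 0 + 2 * 3 ^ d := by
    intro h0
    rw [h0] at hc12
    omega
  have hYn : Nd (PV k) (Sp (k := k) fun s s' => (Lk k).mkQ (⟨y s s', hyW s s'⟩ : W0 k)) := by
    rcases nd_or D hVY with hn | hn
    · exact hn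
    · exfalso
      have h1 := count_one D hVY (fun x hx y hy => hn hy x hx)
      have h2 := finrank_cf.{u, u, w} ι 3 _ (Vk k) (sV C.act) le_rfl
      have h3 := sum_ge2 (fun b => (Bf k b).card) h1 hcf hcb
      rw [← h2] at h3
      omega
  set Y := Sp (k := k) fun s s' => (Lk k).mkQ (⟨y s s', hyW s s'⟩ : W0 k) with hYd
  have hYf := IsV.finrank ι hVY
  have hr := rank_orth D hY
  have hOi := D.orth_inv hY
  have hO16 : Module.finrank k (orth (PV k) Y) = 16 := by
    have q1 := hYf.trans hb9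
    have q2 := hr
    rw [q1] at q2
    have q3 := q2.trans h25
    omega
  have hOn := nd_orth D hP hYn
  have hcO : c ∈ cf (Sy.{u, u, w} ι 3) (subRep (sV C.act) (orth (PV k) Y) hOi) := by
    rcases mem_compl (hW := hY) (hX := hOi) (nd_compl D hY hYn) hcf with h1 | h1
    · exfalso
      rw [cf_irr (Sy.{u, u, w} ι 3) hVY, Multiset.mem_singleton] at h1
      exact hcb h1
    · exact h1
  rcases Nat.lt_or_ge d 2 with hd' | hd'
  swap
  · -- `d ≥ 2`
    have hc16 : (Bf k c).card = 16 := by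
      obtain ⟨e, rfl⟩ : ∃ e, d = e + 2 := ⟨d - 2, by omega⟩
      rw [hc, card_c2]
    exact C.no_sixteen (isV_of_card hcO (hO16.trans hc16.symm)) hc16
  · -- `d = 1`
    have hd1 : d = 1 := by omega
    subst hd1
    have hc16 : c = 16 := by omega
    subst hc16
    have hcc : (Bf k 16).card = 12 := card_c1 k
    -- a nondegenerate twelve-dimensional submodule
    have fin : ∀ (W : Submodule k (Vk k)) (hW : ∀ g, ∀ x ∈ W, sV C.act g x ∈ W), W ≤ orth (PV k) Y → Nd (PV k) W →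
        Module.finrank k W = 12 → False := by
      intro W hW hWY hWn hWf
      have hrW := rank_orth D hW
      have hYW : Y ≤ orth (PV k) W := fun y hy w hw => by
        rw [hP]
        exact hWY hw y hy
      have hcW : 16 ∉ cf (Sy.{u, u, w} ι 3) (subRep (sV C.act) (orth (PV k) W) (D.orth_inv hW)) := by
        intro h1
        have h2 := two_factors (mem_cf_of_le ι 3 hVY (D.orth_inv hW) hYW) h1 hcb
        omega
      have hcW' : 16 ∈ cf (Sy.{u, u, w} ι 3) (subRep (sV C.act) W hW) :=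
        (mem_compl (hW := hW) (hX := D.orth_inv hW) (nd_compl D hW hWn) hcf).resolve_right hcW
      have hVW := isV_of_card hcW' (hWf.trans hcc.symm)
      have hxW : x ∈ W := hw_side C.card (hW := hW) (hX := D.orth_inv hW) (nd_compl D hW hWn) hxu hxh (by omega)
        (by norm_num) (by omega) hcW
      exact C.sh_top1 ha3 hy hVW hWn hm0 hxW hx0
    obtain ⟨X, hX, e, hle, hVX⟩ := exists_irr (ι := ι) (p := 3) hOi (by
      intro h0
      rw [h0, finrank_bot] at hO16
      omega)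
    obtain ⟨hXf, he⟩ := C.dims no3 hVX
    rcases he with he | he | he | he
    · have hXn := C.nd_four no4 hVX he
      obtain ⟨h1, h2⟩ := nd_inf D hX hXn hOn hle hP
      exact fin _ (inf_inv hOi (D.orth_inv hX)) inf_le_left h1 (by omega)
    · have h1 := C.nine_uniq no3 hVX hVY he hb9
      have h2 : Y ⊓ orth (PV k) Y = ⊥ := hYn
      rw [h1] at hle
      rw [inf_eq_left.2 hle] at h2
      exact IsV.ne_bot hVY h2
    · exact fin X hX hle (C.nd_twelve hVX he) (by omega)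
    · exact C.no_sixteen hVX he

end Cfsg.Agent.R2.F4P.Th
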