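import Cfsg.Agent.R2.F4P.Th.SkJ

/-!
# S5931, `p = 3`, the skeleton : the coefficients of `y(σ, τ) ^ #`, II (helper17)

* `KKa`, `kk_act` : the action of `SL(2, K)` on the `k_AB`;
* `sh_yy` : `y(σ, τ) ^ # = 0` if `y_22 ^ # = 0`, `q > 9`.
-/

set_option autoImplicit false
set_option linter.unusedSectionVars false
set_option linter.unusedVariables false

namespace Cfsg.Agent.R2.F4P.Th

open Cfsg.Lie
open Cfsg.Agent.ChevalleyStructure.E6Min.Tables Cfsg.Agent.ChevalleyStructure.E6Min.Basic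
open Cfsg.Agent.H952.F4 (sh cr tf tr1 u0)
open Cfsg.Agent.H952.F4.Jord
open Cfsg.Agent.H943.SL2Rel Cfsg.Agent.H943.SL2Mod Cfsg.Agent.R2.H28.SL2 Cfsg.Agent.H943.RepAdd
open Cfsg.Agent.R2.F4L
open Cfsg.Agent.R2.GEO (crB crB_apply)

universe u v w

theorem swap4 {M : Type*} [AddCommMonoid M] (s t s' t' : Finset ℕ) (F : ℕ → ℕ → ℕ → ℕ → M) :
    ∑ A ∈ s, ∑ B ∈ t, ∑ A' ∈ s', ∑ B' ∈ t', F A B A' B' = ∑ A' ∈ s', ∑ B' ∈ t', ∑ A ∈ s, ∑ B ∈ t, F A B A' B' := by
  calc _ = ∑ A ∈ s, ∑ A' ∈ s', ∑ B' ∈ t', ∑ B ∈ t, F A B A' B' := by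
        refine Finset.sum_congr rfl fun A _ => ?_
        rw [Finset.sum_comm]
        refine Finset.sum_congr rfl fun A' _ => ?_
        rw [Finset.sum_comm]
    _ = _ := by
        rw [Finset.sum_comm]
        refine Finset.sum_congr rfl fun A' _ => ?_
        rw [Finset.sum_comm]

theorem binom5 {k : Type*} [Field k] (x s : k) {n : ℕ} (hn : n < 5) :
    (x + s) ^ n = ∑ A ∈ Finset.range 5, x ^ A * ((n.choose A : k) * s ^ (n - A)) := by
  interval_cases n <;> norm_num [Finset.sum_range_succ, Nat.choose] <;> ring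

theorem refl5 {k : Type*} [Field k] {x : k} (hx : x ≠ 0) {n : ℕ} (hn : n < 5) :
    (x ^ 2) ^ 2 * (-x⁻¹) ^ n = (-1) ^ n * x ^ (4 - n) := by
  interval_cases n <;> norm_num <;> field_simp

section Act

variable {k : Type u} [Field k] [DecidableEq k] {K : Type w} [Field K] [Fintype K] [DecidableEq K]

/-- the action of `SL(2, K)` on the coefficients -/
structure KKa (ι : K →+* k) (ρ : Representation k (Matrix.SpecialLinearGroup (Fin 2) K) (I27 → k)) (i j : ℕ)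
    (kk : ℕ → ℕ → I27 → k) : Prop where
  u : ∀ (t : K), ∀ A < 5, ∀ B < 5, ρ (u t) (kk A B) = ∑ A' ∈ Finset.range 5, ∑ B' ∈ Finset.range 5,
    (((A'.choose A : k) * (ι t ^ 3 ^ i) ^ (A' - A)) * ((B'.choose B : k) * (ι t ^ 3 ^ j) ^ (B' - B))) • kk A' B'
  h : ∀ (b : Kˣ), ∀ A < 5, ∀ B < 5, ρ (h b) (kk A B) =
    (((((ι b ^ 3 ^ i)⁻¹ ^ 2) * ((ι b ^ 3 ^ j)⁻¹ ^ 2)) ^ 2) * (((ι b ^ 3 ^ i) ^ 2) ^ A * ((ι b ^ 3 ^ j) ^ 2) ^ B)) • kk A B
  w : ∀ A < 5, ∀ B < 5, ρ w (kk A B) = ((-1 : k) ^ (4 - A) * (-1 : k) ^ (4 - B)) • kk (4 - A) (4 - B)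

variable {ι : K →+* k} [CharP k 3] [CharP K 3] [Infinite k]
variable {ρ : Representation k (Matrix.SpecialLinearGroup (Fin 2) K) (I27 → k)} {i j : ℕ} {y : ℕ → ℕ → I27 → k}
variable {kk : ℕ → ℕ → I27 → k}

theorem kk_act (H : Act ρ) (hy : TP ι 3 ρ 2 i 2 j y) (hk : ∀ σ τ : k,
    sh (yy y σ τ) = ∑ A ∈ Finset.range 5, ∑ B ∈ Finset.range 5, (σ ^ A * τ ^ B) • kk A B) : KKa ι ρ i j kk where
  u := by
    intro t
    have key : ∀ A < 5, ∀ B < 5, ρ (Cfsg.Agent.H943.SL2Rel.u t) (kk A B) - ∑ A' ∈ Finset.range 5, ∑ B' ∈ Finset.range 5,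
        (((A'.choose A : k) * (ι t ^ 3 ^ i) ^ (A' - A)) * ((B'.choose B : k) * (ι t ^ 3 ^ j) ^ (B' - B))) • kk A' B' = 0 := by
      refine uniq2 fun σ τ _ _ => ?_
      have e1 := congrArg (ρ (Cfsg.Agent.H943.SL2Rel.u t)) (hk σ τ)
      rw [H.sh, yy_u hy, hk, map_sum] at e1
      have e2 : ∑ A ∈ Finset.range 5, ρ (Cfsg.Agent.H943.SL2Rel.u t) (∑ B ∈ Finset.range 5, (σ ^ A * τ ^ B) • kk A B) =
          ∑ A ∈ Finset.range 5, ∑ B ∈ Finset.range 5, (σ ^ A * τ ^ B) • ρ (Cfsg.Agent.H943.SL2Rel.u t) (kk A B) := by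
        refine Finset.sum_congr rfl fun A _ => ?_
        rw [map_sum]
        exact Finset.sum_congr rfl fun B _ => map_smul _ _ _
      rw [e2] at e1
      have e3 : ∑ A ∈ Finset.range 5, ∑ B ∈ Finset.range 5,
          ((σ + ι t ^ 3 ^ i) ^ A * (τ + ι t ^ 3 ^ j) ^ B) • kk A B =
          ∑ A ∈ Finset.range 5, ∑ B ∈ Finset.range 5, (σ ^ A * τ ^ B) • ∑ A' ∈ Finset.range 5, ∑ B' ∈ Finset.range 5,
          (((A'.choose A : k) * (ι t ^ 3 ^ i) ^ (A' - A)) * ((B'.choose B : k) * (ι t ^ 3 ^ j) ^ (B' - B))) • kk A' B' := by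
        calc _ = ∑ A' ∈ Finset.range 5, ∑ B' ∈ Finset.range 5, ∑ A ∈ Finset.range 5, ∑ B ∈ Finset.range 5,
              ((σ ^ A * ((A'.choose A : k) * (ι t ^ 3 ^ i) ^ (A' - A))) *
                (τ ^ B * ((B'.choose B : k) * (ι t ^ 3 ^ j) ^ (B' - B)))) • kk A' B' := by
              refine Finset.sum_congr rfl fun A' hA' => Finset.sum_congr rfl fun B' hB' => ?_
              rw [binom5 σ _ (Finset.mem_range.1 hA'), binom5 τ _ (Finset.mem_range.1 hB'), Finset.sum_mul_sum,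
                Finset.sum_smul]
              exact Finset.sum_congr rfl fun A _ => Finset.sum_smul
          _ = ∑ A ∈ Finset.range 5, ∑ B ∈ Finset.range 5, ∑ A' ∈ Finset.range 5, ∑ B' ∈ Finset.range 5,
              ((σ ^ A * ((A'.choose A : k) * (ι t ^ 3 ^ i) ^ (A' - A))) *
                (τ ^ B * ((B'.choose B : k) * (ι t ^ 3 ^ j) ^ (B' - B)))) • kk A' B' := (swap4 _ _ _ _ _).symm
          _ = _ := by
              refine Finset.sum_congr rfl fun A _ => Finset.sum_congr rfl fun B _ => ?_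
              rw [Finset.smul_sum]
              refine Finset.sum_congr rfl fun A' _ => ?_
              rw [Finset.smul_sum]
              refine Finset.sum_congr rfl fun B' _ => ?_
              rw [smul_smul]
              congr 1
              ring
      rw [e3] at e1
      simp only [smul_sub, Finset.sum_sub_distrib]
      rw [← e1, sub_self]
    intro A hA B hB
    exact sub_eq_zero.1 (key A hA B hB)
  h := by
    intro b
    have key : ∀ A < 5, ∀ B < 5, ρ (Cfsg.Agent.H943.SL2Rel.h b) (kk A B) -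
        (((((ι b ^ 3 ^ i)⁻¹ ^ 2) * ((ι b ^ 3 ^ j)⁻¹ ^ 2)) ^ 2) * (((ι b ^ 3 ^ i) ^ 2) ^ A * ((ι b ^ 3 ^ j) ^ 2) ^ B)) •
          kk A B = 0 := by
      refine uniq2 fun σ τ _ _ => ?_
      have e1 := congrArg (ρ (Cfsg.Agent.H943.SL2Rel.h b)) (hk σ τ)
      rw [H.sh, yy_h hy, sh_smul, hk, map_sum] at e1
      have e2 : ∑ A ∈ Finset.range 5, ρ (Cfsg.Agent.H943.SL2Rel.h b) (∑ B ∈ Finset.range 5, (σ ^ A * τ ^ B) • kk A B) =
          ∑ A ∈ Finset.range 5, ∑ B ∈ Finset.range 5, (σ ^ A * τ ^ B) • ρ (Cfsg.Agent.H943.SL2Rel.h b) (kk A B) := by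
        refine Finset.sum_congr rfl fun A _ => ?_
        rw [map_sum]
        exact Finset.sum_congr rfl fun B _ => map_smul _ _ _
      rw [e2] at e1
      simp only [smul_sub, Finset.sum_sub_distrib]
      rw [← e1, sub_eq_zero, Finset.smul_sum]
      refine Finset.sum_congr rfl fun A _ => ?_
      rw [Finset.smul_sum]
      refine Finset.sum_congr rfl fun B _ => ?_
      rw [smul_smul, smul_smul]
      congr 1
      rw [mul_pow _ σ, mul_pow _ τ]
      ring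
    intro A hA B hB
    exact sub_eq_zero.1 (key A hA B hB)
  w := by
    have key : ∀ A < 5, ∀ B < 5, ρ Cfsg.Agent.H943.SL2Rel.w (kk A B) -
        ((-1 : k) ^ (4 - A) * (-1 : k) ^ (4 - B)) • kk (4 - A) (4 - B) = 0 := by
      refine uniq2 fun σ τ hσ hτ => ?_
      have e1 := congrArg (ρ Cfsg.Agent.H943.SL2Rel.w) (hk σ τ)
      rw [H.sh, yy_w hy hσ hτ, sh_smul, hk, map_sum] at e1
      have e2 : ∑ A ∈ Finset.range 5, ρ Cfsg.Agent.H943.SL2Rel.w (∑ B ∈ Finset.range 5, (σ ^ A * τ ^ B) • kk A B) =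
          ∑ A ∈ Finset.range 5, ∑ B ∈ Finset.range 5, (σ ^ A * τ ^ B) • ρ Cfsg.Agent.H943.SL2Rel.w (kk A B) := by
        refine Finset.sum_congr rfl fun A _ => ?_
        rw [map_sum]
        exact Finset.sum_congr rfl fun B _ => map_smul _ _ _
      rw [e2] at e1
      simp only [smul_sub, Finset.sum_sub_distrib]
      rw [← e1, sub_eq_zero, Finset.smul_sum]
      rw [← Finset.sum_range_reflect (fun A => ∑ B ∈ Finset.range 5, (σ ^ A * τ ^ B) •
        ((-1 : k) ^ (4 - A) * (-1 : k) ^ (4 - B)) • kk (4 - A) (4 - B)) 5]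
      refine Finset.sum_congr rfl fun A hA => ?_
      rw [Finset.mem_range] at hA
      rw [Finset.smul_sum]
      rw [← Finset.sum_range_reflect (fun B => (σ ^ (5 - 1 - A) * τ ^ B) •
        ((-1 : k) ^ (4 - (5 - 1 - A)) * (-1 : k) ^ (4 - B)) • kk (4 - (5 - 1 - A)) (4 - B)) 5]
      refine Finset.sum_congr rfl fun B hB => ?_
      rw [Finset.mem_range] at hB
      have f1 : 4 - (5 - 1 - A) = A := by omega
      have f2 : 4 - (5 - 1 - B) = B := by omega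
      have f3 : 5 - 1 - A = 4 - A := rfl
      have f4 : 5 - 1 - B = 4 - B := rfl
      rw [f1, f2, f3, f4, smul_smul, smul_smul]
      congr 1
      have g1 := refl5 hσ hA
      have g2 := refl5 hτ hB
      calc (σ ^ 2 * τ ^ 2) ^ 2 * ((-σ⁻¹) ^ A * (-τ⁻¹) ^ B) = ((σ ^ 2) ^ 2 * (-σ⁻¹) ^ A) * ((τ ^ 2) ^ 2 * (-τ⁻¹) ^ B) := by ring
        _ = _ := by
          rw [g1, g2]
          ring
    intro A hA B hB
    exact sub_eq_zero.1 (key A hA B hB)

end Act

end Cfsg.Agent.R2.F4P.Th
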