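import Cfsg.Agent.R2.F4P.Th.SkK

/-!
# S5931, `p = 3`, the skeleton : the coefficients of `y(σ, τ) ^ #`, III (helper17)

* `sh_yy` : `y(σ, τ) ^ # = 0` if `y_22 ^ # = 0`, `q > 9`.
-/

set_option autoImplicit false
set_option linter.unusedSectionVars false
set_option linter.unusedVariables false

namespace Cfsg.Agent.R2.F4P.Th

open Cfsg.Lie
open Cfsg.Agent.ChevalleyStructure.E6Min.Tables Cfsg.Agent.ChevalleyStructure.E6Min.Basic
open Cfsg.Agent.H952.F4 (sh cr tf tr1 u0)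
open Cfsg.Agent.H952.F4.Jord
open Cfsg.Agent.H943.SL2Rel Cfsg.Agent.H943.SL2Mod Cfsg.Agent.R2.H28.SL2 Cfsg.Agent.H943.RepAdd
open Cfsg.Agent.R2.F4L

universe u v w

variable {k : Type u} [Field k] [DecidableEq k] {K : Type w} [Field K] [Fintype K] [DecidableEq K]
variable {ι : K →+* k} [CharP k 3] [CharP K 3] [IsAlgClosed k] {a : ℕ}
variable {ρ : Representation k (Matrix.SpecialLinearGroup (Fin 2) K) (I27 → k)}
variable {kk : ℕ → ℕ → I27 → k}

/-- the relation on the curve -/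
theorem curve (H : Act ρ) {d : ℕ} {y : ℕ → ℕ → I27 → k} (hy : TP ι 3 ρ 2 0 2 d y) (h0 : sh (y 2 2) = 0)
    (hk : ∀ σ τ : k, sh (yy y σ τ) = ∑ A ∈ Finset.range 5, ∑ B ∈ Finset.range 5, (σ ^ A * τ ^ B) • kk A B) (t : K) :
    ∑ x ∈ Finset.range 5 ×ˢ Finset.range 5, (ι t ^ (x.1 + 3 ^ d * x.2)) • kk x.1 x.2 = 0 := by
  have e1 : sh (y 0 0) = 0 := by
    have e2 := hy.w 2 le_rfl 2 le_rfl
    norm_num at e2
    rw [← e2, ← H.sh, h0, map_zero]
  have e3 : yy y 0 0 = y 0 0 := by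
    unfold yy
    simp
  have e4 := yy_u hy t 0 0
  rw [e3, zero_add, zero_add] at e4
  have e5 : sh (yy y (ι t ^ 3 ^ 0) (ι t ^ 3 ^ d)) = 0 := by
    rw [← e4, ← H.sh, e1, map_zero]
  rw [hk] at e5
  rw [Finset.sum_product, ← e5]
  refine Finset.sum_congr rfl fun A _ => Finset.sum_congr rfl fun B _ => ?_
  rw [pow_add, pow_zero, pow_one, ← pow_mul]

/-- `d ≥ 2` -/
theorem kk_two (hcard : Fintype.card K = 3 ^ a) {d : ℕ} (hd : 2 ≤ d) (hnum : 4 + 4 * 3 ^ d < 3 ^ a - 1)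
    (h : ∀ t : K, ∑ x ∈ Finset.range 5 ×ˢ Finset.range 5, (ι t ^ (x.1 + 3 ^ d * x.2)) • kk x.1 x.2 = 0) :
    ∀ A < 5, ∀ B < 5, kk A B = 0 := by
  have h9 : 9 ≤ 3 ^ d := by
    calc 9 = 3 ^ 2 := by norm_num
      _ ≤ 3 ^ d := Nat.pow_le_pow_right (by norm_num) hd
  have h1 := polyE (ι := ι) 3 (Finset.range 5 ×ˢ Finset.range 5) (fun x => x.1 + 3 ^ d * x.2) (fun x => kk x.1 x.2)
    (fun x hx => by
      rw [Finset.mem_product, Finset.mem_range, Finset.mem_range] at hx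
      have h2 : 3 ^ d * x.2 ≤ 3 ^ d * 4 := Nat.mul_le_mul_left _ (by omega)
      rw [hcard]
      show x.1 + 3 ^ d * x.2 < 3 ^ a
      omega) (fun x hx z hz hxz => by
      rw [Finset.mem_product, Finset.mem_range, Finset.mem_range] at hx hz
      have h3 : x.1 + 3 ^ d * x.2 = z.1 + 3 ^ d * z.2 := hxz
      have h4 : x.1 = z.1 := by
        have := congrArg (· % 3 ^ d) h3
        simp only [Nat.add_mul_mod_self_left] at this
        rwa [Nat.mod_eq_of_lt (by omega), Nat.mod_eq_of_lt (by omega)] at this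
      refine Prod.ext h4 ?_
      rw [h4] at h3
      exact Nat.eq_of_mul_eq_mul_left (by omega) (Nat.add_left_cancel h3)) h
  intro A hA B hB
  exact h1 (A, B) (Finset.mem_product.2 ⟨Finset.mem_range.2 hA, Finset.mem_range.2 hB⟩)

omit [DecidableEq k] [IsAlgClosed k] in
theorem four_one (k : Type u) [Field k] [CharP k 3] : (4 : k) = 1 := by linear_combination three_zero k

omit [DecidableEq k] [IsAlgClosed k] in
theorem six_zero (k : Type u) [Field k] [CharP k 3] : (6 : k) = 0 := by linear_combination 2 * three_zero k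

/-- `d = 1` -/
theorem kk_one (hcard : Fintype.card K = 3 ^ a) (ha3 : 3 ≤ a) (L : KKa ι ρ 0 1 kk)
    (no4 : ∀ i j, i < a → j < a → i ≠ j → ∀ x, TP ι 3 ρ 1 i 1 j x → x = 0)
    (h : ∀ t : K, ∑ x ∈ Finset.range 5 ×ˢ Finset.range 5, (ι t ^ (x.1 + 3 ^ 1 * x.2)) • kk x.1 x.2 = 0) :
    ∀ A < 5, ∀ B < 5, kk A B = 0 := by
  have h27 : 27 ≤ Fintype.card K := by
    rw [hcard]
    exact (by norm_num : 27 = 3 ^ 3) ▸ Nat.pow_le_pow_right (by norm_num) ha3
  have rel : ∀ n, ∑ x ∈ Finset.range 5 ×ˢ Finset.range 5 with x.1 + 3 ^ 1 * x.2 = n, kk x.1 x.2 = 0 :=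
    polyF (ι := ι) 3 (Finset.range 5 ×ˢ Finset.range 5) (fun x => x.1 + 3 ^ 1 * x.2) (fun x => kk x.1 x.2)
      (fun x hx => by
        rw [Finset.mem_product, Finset.mem_range, Finset.mem_range] at hx
        show x.1 + 3 ^ 1 * x.2 < _
        omega) h
  have ev : ∀ (n : ℕ) (s : Finset (ℕ × ℕ)), (Finset.range 5 ×ˢ Finset.range 5).filter (fun x : ℕ × ℕ => x.1 + 3 ^ 1 * x.2 = n) = s →
      ∑ x ∈ s, kk x.1 x.2 = 0 := fun n s hs => by rw [← hs]; exact rel n
  have r0 : kk 0 0 = 0 := by simpa using ev 0 {(0, 0)} (by decide)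
  have r1 : kk 1 0 = 0 := by simpa using ev 1 {(1, 0)} (by decide)
  have r2 : kk 2 0 = 0 := by simpa using ev 2 {(2, 0)} (by decide)
  have r3 : kk 3 0 + kk 0 1 = 0 := by simpa using ev 3 {(3, 0), (0, 1)} (by decide)
  have r4 : kk 4 0 + kk 1 1 = 0 := by simpa using ev 4 {(4, 0), (1, 1)} (by decide)
  have r5 : kk 2 1 = 0 := by simpa using ev 5 {(2, 1)} (by decide)
  have r6 : kk 3 1 + kk 0 2 = 0 := by simpa using ev 6 {(3, 1), (0, 2)} (by decide)
  have r7 : kk 4 1 + kk 1 2 = 0 := by simpa using ev 7 {(4, 1), (1, 2)} (by decide)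
  have r8 : kk 2 2 = 0 := by simpa using ev 8 {(2, 2)} (by decide)
  have r9 : kk 3 2 + kk 0 3 = 0 := by simpa using ev 9 {(3, 2), (0, 3)} (by decide)
  have r10 : kk 4 2 + kk 1 3 = 0 := by simpa using ev 10 {(4, 2), (1, 3)} (by decide)
  have r11 : kk 2 3 = 0 := by simpa using ev 11 {(2, 3)} (by decide)
  have r12 : kk 3 3 + kk 0 4 = 0 := by simpa using ev 12 {(3, 3), (0, 4)} (by decide)
  have r13 : kk 4 3 + kk 1 4 = 0 := by simpa using ev 13 {(4, 3), (1, 4)} (by decide)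
  have r14 : kk 2 4 = 0 := by simpa using ev 14 {(2, 4)} (by decide)
  have r15 : kk 3 4 = 0 := by simpa using ev 15 {(3, 4)} (by decide)
  have r16 : kk 4 4 = 0 := by simpa using ev 16 {(4, 4)} (by decide)
  have c3 := three_zero k
  have c4 := four_one k
  have c6 := six_zero k
  have c9 : (9 : k) = 0 := by linear_combination 3 * c3
  have c12 : (12 : k) = 0 := by linear_combination 4 * c3
  have c18 : (18 : k) = 0 := by linear_combination 6 * c3
  have c24 : (24 : k) = 0 := by linear_combination 8 * c3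
  have c36 : (36 : k) = 0 := by linear_combination 12 * c3
  have c16 : (16 : k) = 1 := by linear_combination 5 * c3
  have hpow : ∀ t : K, ι t ^ 3 ^ 1 = (ι t ^ 3 ^ 0) ^ 3 := fun t => by rw [← pow_mul]; norm_num
  have hpow2 : ∀ t : K, ι t ^ 3 ^ 2 = (ι t ^ 3 ^ 0) ^ 9 := fun t => by rw [← pow_mul]; norm_num
  -- the first tuple
  have T1 : TP ι 3 ρ 1 0 1 1 (fun s s' => if s ≤ 1 ∧ s' ≤ 1 then kk (s + 3 * s') 2 else 0) := by
    refine ⟨fun s s' hs => if_neg (by omega), fun s hs s' hs' t => ?_, fun s hs s' hs' b => ?_, fun s hs s' hs' => ?_⟩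
    · rw [if_pos ⟨hs, hs'⟩, L.u t _ (by omega) _ (by norm_num), hpow]
      generalize ι t ^ 3 ^ 0 = r
      interval_cases s <;> interval_cases s' <;> norm_num [Finset.sum_range_succ, Nat.choose, r8, c3, c4, c6] <;>
        match_scalars <;> ring_nf <;> simp [c3, c4, c6, c9, c12, c18, c24, c36, c16]
    · rw [if_pos ⟨hs, hs'⟩, L.h b _ (by omega) _ (by norm_num)]
      have hb : ι (b : K) ≠ 0 := (map_ne_zero ι).2 b.ne_zero
      have hr : ι (b : K) ^ 3 ^ 0 ≠ 0 := pow_ne_zero _ hb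
      rw [hpow]
      generalize ι (b : K) ^ 3 ^ 0 = r at hr ⊢
      congr 1
      interval_cases s <;> interval_cases s' <;> norm_num <;> field_simp
    · rw [if_pos ⟨hs, hs'⟩, L.w _ (by omega) _ (by norm_num), if_pos ⟨by omega, by omega⟩]
      interval_cases s <;> interval_cases s' <;> norm_num
  have z1 := no4 0 1 (by omega) (by omega) (by norm_num) _ T1
  have z02 : kk 0 2 = 0 := by simpa using congrFun (congrFun z1 0) 0
  have z12 : kk 1 2 = 0 := by simpa using congrFun (congrFun z1 1) 0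
  have z32 : kk 3 2 = 0 := by simpa using congrFun (congrFun z1 0) 1
  have z42 : kk 4 2 = 0 := by simpa using congrFun (congrFun z1 1) 1
  rw [z02, add_zero] at r6
  rw [z12, add_zero] at r7
  rw [z32, zero_add] at r9
  rw [z42, zero_add] at r10
  -- the second tuple
  have T2 : TP ι 3 ρ 1 0 1 2 (fun s s' => if s ≤ 1 ∧ s' ≤ 1 then kk s (1 + 3 * s') else 0) := by
    refine ⟨fun s s' hs => if_neg (by omega), fun s hs s' hs' t => ?_, fun s hs s' hs' b => ?_, fun s hs s' hs' => ?_⟩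
    · rw [if_pos ⟨hs, hs'⟩, L.u t _ (by omega) _ (by omega), hpow, hpow2]
      generalize ι t ^ 3 ^ 0 = r
      interval_cases s <;> interval_cases s' <;>
        norm_num [Finset.sum_range_succ, Nat.choose, r5, r6, r7, r8, r9, r10, r11, r14, r15, r16, z02, z12, z32, z42, c3, c4, c6] <;>
        match_scalars <;> ring_nf <;> simp [c3, c4, c6, c9, c12, c18, c24, c36, c16]
    · rw [if_pos ⟨hs, hs'⟩, L.h b _ (by omega) _ (by omega)]
      have hb : ι (b : K) ≠ 0 := (map_ne_zero ι).2 b.ne_zero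
      have hr : ι (b : K) ^ 3 ^ 0 ≠ 0 := pow_ne_zero _ hb
      rw [hpow, hpow2]
      generalize ι (b : K) ^ 3 ^ 0 = r at hr ⊢
      congr 1
      interval_cases s <;> interval_cases s' <;> norm_num <;> field_simp
    · have q30 : kk 3 0 = -kk 0 1 := eq_neg_of_add_eq_zero_left r3
      have q40 : kk 4 0 = -kk 1 1 := eq_neg_of_add_eq_zero_left r4
      have q33 : kk 3 3 = -kk 0 4 := eq_neg_of_add_eq_zero_left r12
      have q43 : kk 4 3 = -kk 1 4 := eq_neg_of_add_eq_zero_left r13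
      rw [if_pos ⟨hs, hs'⟩, L.w _ (by omega) _ (by omega), if_pos ⟨by omega, by omega⟩]
      interval_cases s <;> interval_cases s' <;> norm_num [q30, q40, q33, q43]
  have z2 := no4 0 2 (by omega) (by omega) (by norm_num) _ T2
  have z01 : kk 0 1 = 0 := by simpa using congrFun (congrFun z2 0) 0
  have z11 : kk 1 1 = 0 := by simpa using congrFun (congrFun z2 1) 0
  have z04 : kk 0 4 = 0 := by simpa using congrFun (congrFun z2 0) 1
  have z14 : kk 1 4 = 0 := by simpa using congrFun (congrFun z2 1) 1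
  rw [z01, add_zero] at r3
  rw [z11, add_zero] at r4
  rw [z04, add_zero] at r12
  rw [z14, add_zero] at r13
  intro A hA B hB
  interval_cases A <;> interval_cases B <;> assumption

/-- **the vectors `y(σ, τ)`** -/
theorem Cx3.sh_yy (C : Cx3 K a ρ) (ha3 : 3 ≤ a) (no4 : ∀ i j, i < a → j < a → i ≠ j → ∀ x, TP ι 3 ρ 1 i 1 j x → x = 0)
    {d : ℕ} (hd : 1 ≤ d) (hd2 : 2 * d ≤ a) {y : ℕ → ℕ → I27 → k} (hy : TP ι 3 ρ 2 0 2 d y) (h0 : sh (y 2 2) = 0)
    (σ τ : k) : sh (yy y σ τ) = 0 := by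
  obtain ⟨kk, hk⟩ := exists_kk (two_ne 3 (by norm_num)) y
  have hc := curve (ι := ι) C.act hy h0 hk
  have hz : ∀ A < 5, ∀ B < 5, kk A B = 0 := by
    rcases Nat.lt_or_ge d 2 with h | h
    · have h1 : d = 1 := by omega
      subst h1
      have : Infinite k := IsAlgClosed.instInfinite
      exact kk_one C.card ha3 (kk_act C.act hy hk) no4 hc
    · exact kk_two C.card h (num1 ha3 hd hd2) hc
  rw [hk]
  refine Finset.sum_eq_zero fun A hA => Finset.sum_eq_zero fun B hB => ?_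
  rw [hz A (Finset.mem_range.1 hA) B (Finset.mem_range.1 hB), smul_zero]

end Cfsg.Agent.R2.F4P.Th
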