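import Cfsg.Agent.R2.F4P.Th.SkB

/-!
# S5931, `p = 3`, the skeleton : two-digit tuples (helper17)

* `TP.lin` : the homomorphism of a tuple; `TP.isV` : the span of a nonzero tuple; `TP.zero_of`, `TP.schur`, `TP.comap`;
* `isV_le_W0` : irreducible submodules of `J` lie in `J_0`; `TP.vk` : tuples in `J_0 / k`.
-/

set_option autoImplicit false
set_option linter.unusedSectionVars false
set_option linter.unusedVariables false

namespace Cfsg.Agent.R2.F4P.Th

open Cfsg.Lie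
open Cfsg.Agent.ChevalleyStructure.E6Min.Tables Cfsg.Agent.ChevalleyStructure.E6Min.Basic
open Cfsg.Agent.H952.F4 (sh cr tf tr1 u0)
open Cfsg.Agent.H952.F4.Jord
open Cfsg.Agent.H952.F4.FixV (trL trL_apply W0 mem_W0 finrank_W0 exists_tr1_one)
open Cfsg.Agent.H943.SL2Rel Cfsg.Agent.H943.SL2Mod Cfsg.Agent.R2.H28.SL2 Cfsg.Agent.H943.RepAdd
open Cfsg.Agent.R2.F4L

universe u v w

variable {k : Type u} [Field k] [DecidableEq k] {K : Type w} [Field K] [Fintype K] [DecidableEq K] {ι : K →+* k}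
variable {p : ℕ} [Fact p.Prime] [CharP k p] [CharP K p] {a : ℕ}

section Tup

variable {V : Type v} [AddCommGroup V] [Module k V] {σ : Representation k (Matrix.SpecialLinearGroup (Fin 2) K) V}
variable {n i m j : ℕ} {x y : ℕ → ℕ → V}

/-- the span of a tuple -/
def Sp {V : Type*} [AddCommGroup V] [Module k V] (x : ℕ → ℕ → V) : Submodule k V :=
  Submodule.span k (Set.range fun s : ℕ × ℕ => x s.1 s.2)

theorem mem_Sp (x : ℕ → ℕ → V) (s s' : ℕ) : x s s' ∈ Sp (k := k) x := Submodule.subset_span ⟨(s, s'), rfl⟩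

theorem Sp_le {x : ℕ → ℕ → V} {X : Submodule k V} (h : ∀ s s', x s s' ∈ X) : Sp x ≤ X := by
  refine Submodule.span_le.2 ?_
  rintro _ ⟨s, rfl⟩
  exact h _ _

/-- **the homomorphism of a tuple** -/
theorem TP.lin {M : Type*} [AddCommGroup M] [Module k M] {τ : Representation k (Matrix.SpecialLinearGroup (Fin 2) K) M}
    {v : ℕ → ℕ → M} (hv : BasP ι p τ n i m j v) (hx : TP ι p σ n i m j x) :
    ∃ f : M →ₗ[k] V, (∀ s s', f (v s s') = x s s') ∧ ∀ g z, f (τ g z) = σ g (f z) := by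
  let B : Module.Basis (Fin (n + 1) × Fin (m + 1)) k M := Module.Basis.mk hv.li hv.sp
  have hB : ∀ s : Fin (n + 1) × Fin (m + 1), B s = v s.1 s.2 := fun s => Module.Basis.mk_apply _ _ _
  let f : M →ₗ[k] V := B.constr k fun s : Fin (n + 1) × Fin (m + 1) => x s.1 s.2
  have hf0 : ∀ s : Fin (n + 1) × Fin (m + 1), f (v s.1 s.2) = x s.1 s.2 := fun s => by
    rw [← hB, Module.Basis.constr_basis]
  have hf : ∀ s s', f (v s s') = x s s' := by
    intro s s'
    by_cases hs : s ≤ n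
    · by_cases hs' : s' ≤ m
      · exact hf0 (⟨s, by omega⟩, ⟨s', by omega⟩)
      · rw [hv.zero s s' (Or.inr (by omega)), hx.zero s s' (Or.inr (by omega)), map_zero]
    · rw [hv.zero s s' (Or.inl (by omega)), hx.zero s s' (Or.inl (by omega)), map_zero]
  have ext : ∀ g, (∀ s ≤ n, ∀ s' ≤ m, f (τ g (v s s')) = σ g (x s s')) → ∀ z, f (τ g z) = σ g (f z) := by
    intro g hg z
    have h1 : f ∘ₗ τ g = σ g ∘ₗ f := by
      refine B.ext fun s => ?_
      rw [LinearMap.comp_apply, LinearMap.comp_apply, hB, hf]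
      exact hg s.1 (by omega) s.2 (by omega)
    exact LinearMap.congr_fun h1 z
  refine ⟨f, hf, ?_⟩
  refine induct (P := fun g => ∀ z, f (τ g z) = σ g (f z)) (fun t => ext _ fun s hs s' hs' => ?_)
    (fun b => ext _ fun s hs s' hs' => ?_) (ext _ fun s hs s' hs' => ?_) (fun g g' hg hg' z => ?_)
  · rw [hv.u s hs s' hs', hx.u s hs s' hs', map_sum]
    refine Finset.sum_congr rfl fun l _ => ?_
    rw [map_sum]
    exact Finset.sum_congr rfl fun l' _ => by rw [map_smul, hf]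
  · rw [hv.h s hs s' hs', hx.h s hs s' hs', map_smul, hf]
  · rw [hv.w s hs s' hs', hx.w s hs s' hs', map_smul, hf]
  · rw [map_mul, map_mul, Module.End.mul_apply, Module.End.mul_apply, hg, hg']

/-- the admissible tuples -/
structure Adm (p a n i m j : ℕ) : Prop where
  n : n < p
  m : m < p
  ij : i ≠ j
  i : i < a
  j : j < a

theorem Adm.le (hF : Fintype.card K = p ^ a) (A : Adm p a n i m j) : n * p ^ i + m * p ^ j ≤ Fintype.card K - 1 := by
  have := pair_lt p A.n A.m A.ij A.i A.j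
  omega

variable [IsAlgClosed k]

/-- the model -/
theorem Adm.bas (ι : K →+* k) (hF : Fintype.card K = p ^ a) (A : Adm p a n i m j) :
    ∃ v : ℕ → ℕ → Vb (k := k) ι (n * p ^ i + m * p ^ j), BasP ι p (RB ι p (A.le hF)) n i m j v :=
  IsV.basP ι p hF A.n A.m A.ij A.i A.j (isV_RB (A.le hF))

theorem TP.inj (hF : Fintype.card K = p ^ a) (A : Adm p a n i m j) (hx : TP ι p σ n i m j x) (hx0 : x ≠ 0) :
    ∃ (v : ℕ → ℕ → Vb (k := k) ι (n * p ^ i + m * p ^ j)) (f : Vb (k := k) ι (n * p ^ i + m * p ^ j) →ₗ[k] V),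
      BasP ι p (RB ι p (A.le hF)) n i m j v ∧ (∀ s s', f (v s s') = x s s') ∧
      (∀ g z, f (RB ι p (A.le hF) g z) = σ g (f z)) ∧ LinearMap.ker f = ⊥ := by
  obtain ⟨v, hv⟩ := A.bas ι hF
  obtain ⟨f, hf, he⟩ := TP.lin hv hx
  refine ⟨v, f, hv, hf, he, ?_⟩
  rcases (IsV.irr ι p (isV_RB (k := k) (ι := ι) (p := p) (A.le hF))).2 (LinearMap.ker f) (fun g m hm => by
    rw [LinearMap.mem_ker] at hm ⊢
    rw [he, hm, map_zero]) with h1 | h1
  · exact h1
  · exfalso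
    apply hx0
    funext s s'
    rw [← hf s s', LinearMap.ker_eq_top.1 h1]
    rfl

/-- **the span of a tuple** -/
theorem TP.isV (hF : Fintype.card K = p ^ a) (A : Adm p a n i m j) (hx : TP ι p σ n i m j x) (hx0 : x ≠ 0) :
    ∃ hX : ∀ g, ∀ y ∈ Sp (k := k) x, σ g y ∈ Sp (k := k) x, IsV ι p (subRep σ (Sp x) hX) (n * p ^ i + m * p ^ j) := by
  obtain ⟨v, f, hv, hf, he, hker⟩ := hx.inj hF A hx0
  have hr : LinearMap.range f = Sp x := by
    apply le_antisymm
    · rintro _ ⟨z, rfl⟩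
      have h1 : z ∈ Submodule.span k (Set.range fun s : Fin (n + 1) × Fin (m + 1) => v s.1 s.2) := hv.sp trivial
      have h2 := Submodule.mem_map_of_mem (f := f) h1
      rw [Submodule.map_span] at h2
      refine Submodule.span_mono ?_ h2
      rintro _ ⟨_, ⟨s, rfl⟩, rfl⟩
      exact ⟨((s.1 : ℕ), (s.2 : ℕ)), (hf _ _).symm⟩
    · refine Sp_le fun s s' => ⟨v s s', hf s s'⟩
  have hX : ∀ g, ∀ y ∈ Sp (k := k) x, σ g y ∈ Sp (k := k) x := by
    rw [← hr]
    rintro g _ ⟨z, rfl⟩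
    exact ⟨_, he g z⟩
  refine ⟨hX, ?_⟩
  let e : Vb (k := k) ι (n * p ^ i + m * p ^ j) ≃ₗ[k] Sp (k := k) x :=
    (LinearEquiv.ofInjective f (LinearMap.ker_eq_bot.1 hker)).trans (LinearEquiv.ofEq _ _ hr)
  exact IsV.iso ι p e (fun g z => Subtype.ext (he g z)) (isV_RB (A.le hF))

/-- a nonzero tuple has no zero entries -/
theorem TP.zero_of (hF : Fintype.card K = p ^ a) (A : Adm p a n i m j) (hx : TP ι p σ n i m j x) {s s' : ℕ} (hs : s ≤ n)
    (hs' : s' ≤ m) (h0 : x s s' = 0) : x = 0 := by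
  by_contra hx0
  obtain ⟨v, f, hv, hf, he, hker⟩ := hx.inj hF A hx0
  have hv0 : v s s' ≠ 0 := hv.li.ne_zero ((⟨s, Nat.lt_succ_iff.2 hs⟩, ⟨s', Nat.lt_succ_iff.2 hs'⟩) : Fin (n + 1) × Fin (m + 1))
  have h2 : v s s' ∈ LinearMap.ker f := by rw [LinearMap.mem_ker, hf, h0]
  rw [hker, Submodule.mem_bot] at h2
  exact hv0 h2

/-- **Schur** : two tuples in an irreducible module -/
theorem TP.schur (hF : Fintype.card K = p ^ a) (A : Adm p a n i m j) (hx : TP ι p σ n i m j x) (hy : TP ι p σ n i m j y)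
    {X : Submodule k V} {hX : ∀ g, ∀ x ∈ X, σ g x ∈ X} {b : ℕ} (hV : IsV ι p (subRep σ X hX) b)
    (hxX : ∀ s s', x s s' ∈ X) (hyX : ∀ s s', y s s' ∈ X) (hx0 : x ≠ 0) : ∃ c : k, y = c • x := by
  obtain ⟨z, hz0, -, -, -, huniq⟩ := IsV.hw ι p hV
  obtain ⟨c, hc⟩ := huniq ⟨x n m, hxX n m⟩ (fun t => Subtype.ext (hx.top t))
  obtain ⟨d, hd⟩ := huniq ⟨y n m, hyX n m⟩ (fun t => Subtype.ext (hy.top t))
  have hc0 : c ≠ 0 := by
    rintro rfl
    rw [zero_smul] at hc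
    exact hx0 (hx.zero_of hF A le_rfl le_rfl (congrArg Subtype.val hc))
  refine ⟨d * c⁻¹, ?_⟩
  have h1 : y n m = (d * c⁻¹) • x n m := by
    have e1 : x n m = c • (z : V) := congrArg Subtype.val hc
    have e2 : y n m = d • (z : V) := congrArg Subtype.val hd
    rw [e2, e1, smul_smul, mul_assoc, inv_mul_cancel₀ hc0, mul_one]
  have h2 : y + (-(d * c⁻¹)) • x = 0 := by
    refine (hy.add (hx.smul _)).zero_of hF A (s := n) (s' := m) le_rfl le_rfl ?_
    show y n m + (-(d * c⁻¹)) • x n m = 0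
    rw [h1]
    module
  have h3 : y = (y + (-(d * c⁻¹)) • x) + (d * c⁻¹) • x := by module
  rw [h3, h2, zero_add]

end Tup

/-- tuples pull back along injective maps -/
theorem TP.comap {V : Type*} [AddCommGroup V] [Module k V] {V' : Type*} [AddCommGroup V'] [Module k V']
    {σ : Representation k (Matrix.SpecialLinearGroup (Fin 2) K) V} {σ' : Representation k (Matrix.SpecialLinearGroup (Fin 2) K) V'}
    {n i m j : ℕ} {x : ℕ → ℕ → V} (f : V →ₗ[k] V') (hf : ∀ g x, f (σ g x) = σ' g (f x)) (hi : Function.Injective f)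
    (hx : TP ι p σ' n i m j (fun s s' => f (x s s'))) : TP ι p σ n i m j x where
  zero := fun s s' hs => hi (by rw [map_zero]; exact hx.zero s s' hs)
  u := fun s hs s' hs' t => hi (by
    rw [hf, map_sum]
    refine (hx.u s hs s' hs' t).trans (Finset.sum_congr rfl fun l _ => ?_)
    rw [map_sum]
    exact Finset.sum_congr rfl fun l' _ => (map_smul _ _ _).symm)
  h := fun s hs s' hs' b => hi (by rw [hf, map_smul]; exact hx.h s hs s' hs' b)
  w := fun s hs s' hs' => hi (by rw [hf, map_smul]; exact hx.w s hs s' hs')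

section Ctx

variable [CharP k 3] [CharP K 3] [IsAlgClosed k]
variable {ρ : Representation k (Matrix.SpecialLinearGroup (Fin 2) K) (I27 → k)}

/-- irreducible submodules of `J` lie in `J_0` -/
theorem Cx3.le_W0 (C : Cx3 K a ρ) {X : Submodule k (I27 → k)} {hX : ∀ g, ∀ x ∈ X, ρ g x ∈ X} {b : ℕ}
    (h : IsV ι 3 (subRep ρ X hX) b) (hb : b ≠ 0) : X ≤ W0 k := by
  rcases IsV.inf_or_le ι 3 h (W0_inv C.act) with h1 | h1
  · exfalso
    have h2 := Submodule.finrank_sup_add_finrank_inf_eq X (W0 k)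
    rw [h1, finrank_bot, add_zero, finrank_W0] at h2
    have h3 := Submodule.finrank_le (X ⊔ W0 k)
    have h4 := IsV.finrank ι h
    have h5 := card_Bf_pos (k := k) (Nat.pos_of_ne_zero hb)
    have h6 : Module.finrank k (I27 → k) = 27 := by
      rw [Module.finrank_fintype_fun_eq_card]
      rfl
    omega
  · exact h1

/-- tuples lie in `J_0` -/
theorem Cx3.tp_W0 (C : Cx3 K a ρ) {n i m j : ℕ} (A : Adm 3 a n i m j) (hn : n ≠ 0) {x : ℕ → ℕ → I27 → k}
    (hx : TP ι 3 ρ n i m j x) (s s' : ℕ) : x s s' ∈ W0 k := by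
  by_cases hx0 : x = 0
  · rw [hx0]
    exact (W0 k).zero_mem
  · obtain ⟨hX, hV⟩ := hx.isV C.card A hx0
    refine C.le_W0 hV ?_ (mem_Sp x s s')
    have h1 : 0 < 3 ^ i := Nat.pow_pos (by norm_num)
    have h2 : 1 * 3 ^ i ≤ n * 3 ^ i := Nat.mul_le_mul_right _ (by omega)
    omega

/-- the tuple in `J_0` -/
theorem Cx3.tp0 (C : Cx3 K a ρ) {n i m j : ℕ} {x : ℕ → ℕ → I27 → k} (hx : TP ι 3 ρ n i m j x)
    (h0 : ∀ s s', x s s' ∈ W0 k) : TP ι 3 (s0 C.act) n i m j (fun s s' => (⟨x s s', h0 s s'⟩ : W0 k)) :=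
  TP.comap (V := W0 k) (W0 k).subtype (fun _ _ => rfl) (W0 k).injective_subtype hx

/-- the tuple in `J_0 / k` -/
theorem Cx3.tpV (C : Cx3 K a ρ) {n i m j : ℕ} {x : ℕ → ℕ → I27 → k} (hx : TP ι 3 ρ n i m j x)
    (h0 : ∀ s s', x s s' ∈ W0 k) : TP ι 3 (sV C.act) n i m j (fun s s' => (Lk k).mkQ (⟨x s s', h0 s s'⟩ : W0 k)) :=
  TP.map (V := W0 k) (Lk k).mkQ (fun _ _ => rfl) (C.tp0 hx h0)

end Ctx

end Cfsg.Agent.R2.F4P.Th
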