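import Cfsg.Agent.R2.F4P.Th.SkD
import Cfsg.Agent.R2.F4P.Th.TPb

/-!
# S5931, `p = 3` : tuples of type `(1, i; 1, j)` (helper21)

* `x4F` : the trilinear form vanishes on the span; `x4N` : the norm vanishes;
* `x4y` : the squares form a tuple of type `(2, i; 2, j)`;
* `no4` : the tuple is zero.
-/

set_option autoImplicit false
set_option linter.unusedSectionVars false
set_option linter.unusedVariables false
set_option linter.unusedSimpArgs false

namespace Cfsg.Agent.R2.F4P.Th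

open Cfsg.Lie
open Cfsg.Agent.ChevalleyStructure.E6Min.Tables Cfsg.Agent.ChevalleyStructure.E6Min.Basic
open Cfsg.Agent.H952.F4 (sh cr tf tr1 u0)
open Cfsg.Agent.H952.F4.Jord
open Cfsg.Agent.H952.F4.FixV (W0 mem_W0)
open Cfsg.Agent.H943.SL2Rel Cfsg.Agent.H943.SL2Mod Cfsg.Agent.R2.H28.SL2 Cfsg.Agent.H943.RepAdd
open Cfsg.Agent.R2.F4L
open Cfsg.Agent.R2.GEO (tfB tfB_apply crB crB_apply)

universe u v w

variable {k : Type u} [Field k] [DecidableEq k] {K : Type w} [Field K] [Fintype K] [DecidableEq K] {ι : K →+* k}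
variable [CharP k 3] [CharP K 3] {a : ℕ}
variable {ρ : Representation k (Matrix.SpecialLinearGroup (Fin 2) K) (I27 → k)} {i j : ℕ} {x : ℕ → ℕ → I27 → k}

theorem TP.x10 (hx : TP ι 3 ρ 1 i 1 j x) (t : K) : ρ (Cfsg.Agent.H943.SL2Rel.u t) (x 1 0) =
    x 1 0 + (ι t ^ 3 ^ j) • x 1 1 := by
  rw [hx.u 1 le_rfl 0 (by norm_num) t]
  simp only [Nat.sub_zero, Nat.sub_self, Finset.sum_range_succ, Finset.sum_range_zero, zero_add, Nat.choose_zero_right,
    Nat.choose_self, Nat.cast_one, pow_zero, pow_one, one_mul, mul_one, one_smul, add_zero]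

theorem TP.x01 (hx : TP ι 3 ρ 1 i 1 j x) (t : K) : ρ (Cfsg.Agent.H943.SL2Rel.u t) (x 0 1) =
    x 0 1 + (ι t ^ 3 ^ i) • x 1 1 := by
  rw [hx.u 0 (by norm_num) 1 le_rfl t]
  simp only [Nat.sub_zero, Nat.sub_self, Finset.sum_range_succ, Finset.sum_range_zero, zero_add, Nat.choose_zero_right,
    Nat.choose_self, Nat.cast_one, pow_zero, pow_one, one_mul, mul_one, one_smul, add_zero]

/-- **the trilinear form vanishes** -/
theorem x4F [IsAlgClosed k] (H : Act ρ) (hF : Fintype.card K = 3 ^ a) (hi : i < a) (hj : j < a) (hij : i ≠ j)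
    (hx : TP ι 3 ρ 1 i 1 j x) (hx0 : x ≠ 0) (A B C D E F : ℕ) : tf (cr (x A B) (x C D)) (x E F) = 0 := by
  obtain ⟨M, _, _, τ, v, f, hV, hv, hf, he, hinj⟩ := hx.emb hF (by norm_num) (by norm_num) hij hi hj hx0
  let T : M →ₗ[k] M →ₗ[k] M →ₗ[k] k := ((crB k).compl₁₂ f f).compr₂ ((tfB k).compl₂ f)
  have hT : ∀ a b c, T a b c = tf (cr (f a) (f b)) (f c) := fun _ _ _ => rfl
  have h0 : T = 0 := by
    refine tri11 (by norm_num) hF ⟨by norm_num, by norm_num, hij, hi, hj⟩ hv T (fun a b c => ?_) (fun a b c => ?_)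
      fun g a b c => ?_
    · rw [hT, hT, cr_comm]
    · rw [hT, hT, tf_cr, tf_cr, cr_comm (f b)]
    · rw [hT, hT, he, he, he, H.tf3]
  rw [← hf, ← hf, ← hf, ← hT, h0]
  rfl

/-- the mixed values of the norm vanish -/
theorem x4S [IsAlgClosed k] (H : Act ρ) (hF : Fintype.card K = 3 ^ a) (hi : i < a) (hj : j < a) (hij : i ≠ j)
    (hx : TP ι 3 ρ 1 i 1 j x) (hx0 : x ≠ 0) (A B C D : ℕ) : tf (sh (x A B)) (x C D) = 0 := by
  have h2 : (2 : k) ≠ 0 := two_ne 3 (by norm_num)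
  have h1 := x4F H hF hi hj hij hx hx0 A B A B C D
  rw [cr_self, tf_smul_left] at h1
  exact (mul_eq_zero.1 h1).resolve_left h2

theorem pow_ne_x4 (ι : K →+* k) (hF : Fintype.card K = 3 ^ a) {A B : ℕ} (hA : A < Fintype.card K - 1)
    (hB : B < Fintype.card K - 1) (hAB : A ≠ B) : ∃ lam : Kˣ, ι lam ^ A ≠ ι lam ^ B := by
  obtain ⟨lam, hlam⟩ := exists_prim (k := k) ι 0 3
  rw [pow_zero, pow_one] at hlam
  exact ⟨lam, fun h => hAB (hlam.pow_inj hA hB h)⟩

/-- **the norm vanishes** -/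
theorem x4N [IsAlgClosed k] (H : Act ρ) (hF : Fintype.card K = 3 ^ a) (hi : i < a) (hj : j < a) (hij : i ≠ j)
    (hx : TP ι 3 ρ 1 i 1 j x) : cubicT (x 0 0) = 0 ∧ cubicT (x 1 0) = 0 ∧ cubicT (x 0 1) = 0 ∧ cubicT (x 1 1) = 0 := by
  have cube : ∀ z : k, z ^ 3 = 1 → z = 1 := by
    intro z hz
    have h1 : (z - 1) ^ 3 = 0 := by
      rw [sub_pow_char (p := 3) z 1, hz, one_pow, sub_self]
    exact sub_eq_zero.1 (pow_eq_zero_iff (by norm_num) |>.1 h1)
  have hA : Adm 3 a 2 i 2 j := ⟨by norm_num, by norm_num, hij, hi, hj⟩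
  have hle := hA.le hF
  have h4 : 0 < 3 ^ i := Nat.pow_pos (by norm_num)
  have h5 : 0 < 3 ^ j := Nat.pow_pos (by norm_num)
  have n11 : cubicT (x 1 1) = 0 := by
    obtain ⟨lam, hl⟩ := pow_ne_x4 (k := k) ι hF (A := 3 ^ i + 3 ^ j) (B := 0) (by omega) (by omega) (by omega)
    refine H.wtN (hx.h 1 le_rfl 1 le_rfl lam) fun h => hl ?_
    have h1 := cube _ h
    rw [pow_zero, pow_add]
    simpa using h1
  have n10 : cubicT (x 1 0) = 0 := by
    obtain ⟨lam, hl⟩ := pow_ne_x4 (k := k) ι hF (A := 3 ^ i) (B := 3 ^ j) (by omega) (by omega)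
      (fun h => hij (Nat.pow_right_injective le_rfl (by simpa using h)))
    refine H.wtN (hx.h 1 le_rfl 0 (by norm_num) lam) fun h => hl ?_
    have h1 := cube _ h
    have h3 : ι (lam : K) ^ 3 ^ j ≠ 0 := pow_ne_zero _ ((map_ne_zero ι).2 lam.ne_zero)
    simp only [pow_one, Nat.sub_self, pow_zero, mul_one, Nat.sub_zero, one_mul] at h1
    field_simp at h1
    exact h1
  have n00 : cubicT (x 0 0) = 0 := by
    have h1 := H.N Cfsg.Agent.H943.SL2Rel.w (x 1 1)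
    rw [hx.w 1 le_rfl 1 le_rfl, n11, N_smul] at h1
    simpa using h1
  have n01 : cubicT (x 0 1) = 0 := by
    have h1 := H.N Cfsg.Agent.H943.SL2Rel.w (x 1 0)
    rw [hx.w 1 le_rfl 0 (by norm_num), n10, N_smul] at h1
    simpa using h1
  exact ⟨n00, n10, n01, n11⟩

/-- the norm of a combination of four vectors -/
theorem N_lin4 (c d e f : k) (x y z t : I27 → k) (h1 : cubicT x = 0) (h2 : cubicT y = 0) (h3 : cubicT z = 0)
    (h4 : cubicT t = 0) (s1 : tf (sh x) y = 0) (s2 : tf (sh x) z = 0) (s3 : tf (sh x) t = 0) (s4 : tf (sh y) x = 0)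
    (s5 : tf (sh y) z = 0) (s6 : tf (sh y) t = 0) (s7 : tf (sh z) x = 0) (s8 : tf (sh z) y = 0) (s9 : tf (sh z) t = 0)
    (s10 : tf (sh t) x = 0) (s11 : tf (sh t) y = 0) (s12 : tf (sh t) z = 0) (r1 : tf (cr x y) z = 0)
    (r2 : tf (cr x y) t = 0) (r3 : tf (cr x z) t = 0) (r4 : tf (cr y z) t = 0) :
    cubicT (c • x + d • y + e • z + f • t) = 0 := by
  rw [N_add, N_lin3, h1, h2, h3, s1, s2, s4, s5, s7, s8, r1, N_smul, h4, tf_comm _ (sh (f • t)), sh_add, sh_add,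
    sh_smul, sh_smul, sh_smul, sh_smul, cr_add_left, cr_smul_left, cr_smul_left, cr_smul_left, cr_smul_right,
    cr_smul_right, cr_smul_right]
  simp only [tf_add_left, tf_smul_left, tf_smul_right, tf_add_right, s3, s6, s9, s10, s11, s12, r2, r3, r4]
  ring

/-- the squares -/
noncomputable def x4z (x : ℕ → ℕ → I27 → k) : ℕ → ℕ → I27 → k := fun s s' => match s, s' with
  | 0, 0 => (4 : k) • sh (x 0 0)
  | 1, 0 => (2 : k) • cr (x 0 0) (x 1 0)
  | 2, 0 => (4 : k) • sh (x 1 0)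
  | 0, 1 => (2 : k) • cr (x 0 0) (x 0 1)
  | 1, 1 => cr (x 0 0) (x 1 1) + cr (x 1 0) (x 0 1)
  | 2, 1 => (2 : k) • cr (x 1 0) (x 1 1)
  | 0, 2 => (4 : k) • sh (x 0 1)
  | 1, 2 => (2 : k) • cr (x 0 1) (x 1 1)
  | 2, 2 => (4 : k) • sh (x 1 1)
  | _, _ => 0

theorem x4z_yy (x : ℕ → ℕ → I27 → k) (σ τ : k) :
    yy (x4z x) σ τ = (4 : k) • sh ((1 : k) • x 0 0 + σ • x 1 0 + τ • x 0 1 + (σ * τ) • x 1 1) := by
  simp only [yy, x4z, sh_add, sh_smul, cr_add_left, cr_smul_left, cr_smul_right]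
  module

/-- **the squares form a tuple** -/
theorem x4T (H : Act ρ) (hx : TP ι 3 ρ 1 i 1 j x) : TP ι 3 ρ 2 i 2 j (x4z x) where
  zero := fun s s' hs => by
    rcases hs with hs | hs
    · obtain ⟨s, rfl⟩ : ∃ t, s = t + 3 := ⟨s - 3, by omega⟩
      rfl
    · obtain ⟨s', rfl⟩ : ∃ t, s' = t + 3 := ⟨s' - 3, by omega⟩
      rcases s with _ | _ | _ | s <;> rfl
  u := fun s hs s' hs' t => by
    have c : ((Nat.choose 2 1 : ℕ) : k) = 2 := by norm_num
    interval_cases s <;> interval_cases s' <;>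
      simp only [x4z, Nat.sub_zero, Nat.sub_self, Nat.reduceSub, Nat.reduceAdd, Finset.sum_range_succ,
        Finset.sum_range_zero, zero_add, Nat.choose_zero_right, Nat.choose_self, c, Nat.choose_one_right, Nat.cast_one,
        Nat.cast_ofNat, pow_zero, pow_one, one_mul, mul_one, one_smul, add_zero, map_smul, map_add, H.cr, H.sh, hx.e00,
        hx.x10, hx.x01, hx.top, sh_add, sh_smul, cr_add_left, cr_add_right, cr_smul_left, cr_smul_right, cr_self,
        cr_comm (x 1 0) (x 0 0), cr_comm (x 0 1) (x 0 0), cr_comm (x 1 1) (x 0 0), cr_comm (x 0 1) (x 1 0),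
        cr_comm (x 1 1) (x 1 0), cr_comm (x 1 1) (x 0 1)] <;>
      module
  h := fun s hs s' hs' b => by
    have hb : ι (b : K) ≠ 0 := (map_ne_zero ι).2 b.ne_zero
    have h1 : ι (b : K) ^ 3 ^ i ≠ 0 := pow_ne_zero _ hb
    have h2 : ι (b : K) ^ 3 ^ j ≠ 0 := pow_ne_zero _ hb
    have e00 := hx.h 0 (by norm_num) 0 (by norm_num) b
    have e10 := hx.h 1 le_rfl 0 (by norm_num) b
    have e01 := hx.h 0 (by norm_num) 1 le_rfl b
    have e11 := hx.h 1 le_rfl 1 le_rfl b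
    interval_cases s <;> interval_cases s' <;>
      simp only [x4z, Nat.sub_zero, Nat.sub_self, Nat.reduceSub, pow_zero, pow_one, one_mul, mul_one, map_smul, map_add,
        H.cr, H.sh, e00, e10, e01, e11, sh_smul, cr_smul_left, cr_smul_right] <;>
      match_scalars <;> field_simp
  w := fun s hs s' hs' => by
    have e00 := hx.w 0 (by norm_num) 0 (by norm_num)
    have e10 := hx.w 1 le_rfl 0 (by norm_num)
    have e01 := hx.w 0 (by norm_num) 1 le_rfl
    have e11 := hx.w 1 le_rfl 1 le_rfl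
    interval_cases s <;> interval_cases s' <;>
      simp only [x4z, Nat.sub_zero, Nat.sub_self, Nat.reduceSub, pow_zero, pow_one, one_mul, mul_one, map_smul, map_add,
        H.cr, H.sh, e00, e10, e01, e11, sh_smul, cr_smul_left, cr_smul_right,
        cr_comm (x 1 0) (x 0 0), cr_comm (x 0 1) (x 0 0), cr_comm (x 1 1) (x 0 0), cr_comm (x 0 1) (x 1 0),
        cr_comm (x 1 1) (x 1 0), cr_comm (x 1 1) (x 0 1)] <;>
      module

/-- the invariant -/
theorem x4w (H : Act ρ) (hx : TP ι 3 ρ 1 i 1 j x) (g : Matrix.SpecialLinearGroup (Fin 2) K) :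
    ρ g (cr (x 0 0) (x 1 1) - cr (x 1 0) (x 0 1)) = cr (x 0 0) (x 1 1) - cr (x 1 0) (x 0 1) := by
  refine fix_of (fun t => ?_) (fun b => ?_) ?_ g
  · simp only [map_sub, H.cr, hx.e00, hx.x10, hx.x01, hx.top, cr_add_left, cr_add_right, cr_smul_left, cr_smul_right,
      cr_self, cr_comm (x 1 1) (x 0 1)]
    module
  · have hb : ι (b : K) ≠ 0 := (map_ne_zero ι).2 b.ne_zero
    have h1 : ι (b : K) ^ 3 ^ i ≠ 0 := pow_ne_zero _ hb
    have h2 : ι (b : K) ^ 3 ^ j ≠ 0 := pow_ne_zero _ hb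
    have e00 := hx.h 0 (by norm_num) 0 (by norm_num) b
    have e10 := hx.h 1 le_rfl 0 (by norm_num) b
    have e01 := hx.h 0 (by norm_num) 1 le_rfl b
    have e11 := hx.h 1 le_rfl 1 le_rfl b
    simp only [map_sub, H.cr, e00, e10, e01, e11, cr_smul_left, cr_smul_right, Nat.sub_zero, Nat.sub_self, pow_zero,
      pow_one, one_mul, mul_one]
    match_scalars <;> field_simp
  · have e00 := hx.w 0 (by norm_num) 0 (by norm_num)
    have e10 := hx.w 1 le_rfl 0 (by norm_num)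
    have e01 := hx.w 0 (by norm_num) 1 le_rfl
    have e11 := hx.w 1 le_rfl 1 le_rfl
    simp only [map_sub, H.cr, e00, e10, e01, e11, cr_smul_left, cr_smul_right, Nat.sub_zero, Nat.sub_self, pow_zero,
      pow_one, one_mul, mul_one, cr_comm (x 1 1) (x 0 0), cr_comm (x 0 1) (x 1 0)]
    module

theorem x4white {c d e f : k} {y z t : I27 → k} {x : I27 → k} (h1 : sh x = 0) (h2 : sh y = 0) (h3 : sh z = 0)
    (h4 : sh t = 0) (r1 : cr x y = 0) (r2 : cr x z = 0) (r3 : cr x t = 0) (r4 : cr y z = 0) (r5 : cr y t = 0)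
    (r6 : cr z t = 0) : sh (c • x + d • y + e • z + f • t) = 0 := by
  simp only [sh_add, sh_smul, cr_add_left, cr_smul_left, cr_smul_right, h1, h2, h3, h4, r1, r2, r3, r4, r5, r6,
    smul_zero, add_zero]

/-- **tuples of type `(1, i; 1, j)` vanish** -/
theorem no4 [IsAlgClosed k] (C : Cx3 K a ρ)
    (hy9 : ∀ (i j : ℕ), i < a → j < a → i ≠ j → ∀ (y : ℕ → ℕ → I27 → k), TP ι 3 ρ 2 i 2 j y →
      (∀ s t, sh (yy y s t) = 0) → y = 0)
    (hi : i < a) (hj : j < a) (hij : i ≠ j) (hx : TP ι 3 ρ 1 i 1 j x) : x = 0 := by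
  by_contra hx0
  have h2 : (2 : k) ≠ 0 := two_ne 3 (by norm_num)
  have h4 : (4 : k) ≠ 0 := by
    have : (4 : k) = 2 * 2 := by norm_num
    rw [this]
    exact mul_ne_zero h2 h2
  have can : ∀ {c : k} {v : I27 → k}, c ≠ 0 → c • v = 0 → v = 0 := fun hc h => (smul_eq_zero.1 h).resolve_left hc
  have S := x4S C.act C.card hi hj hij hx hx0
  have F := x4F C.act C.card hi hj hij hx hx0
  obtain ⟨n00, n10, n01, n11⟩ := x4N C.act C.card hi hj hij hx
  have hz : x4z x = 0 := by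
    refine hy9 i j hi hj hij _ (x4T C.act hx) fun σ τ => ?_
    rw [x4z_yy, sh_smul, sh_sh, N_lin4 _ _ _ _ _ _ _ _ n00 n10 n01 n11 (S _ _ _ _) (S _ _ _ _) (S _ _ _ _) (S _ _ _ _)
      (S _ _ _ _) (S _ _ _ _) (S _ _ _ _) (S _ _ _ _) (S _ _ _ _) (S _ _ _ _) (S _ _ _ _) (S _ _ _ _)
      (F _ _ _ _ _ _) (F _ _ _ _ _ _) (F _ _ _ _ _ _) (F _ _ _ _ _ _), zero_smul, smul_zero]
  have z : ∀ s s', x4z x s s' = 0 := fun s s' => by rw [hz]; rfl
  have a00 : sh (x 0 0) = 0 := can h4 (z 0 0)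
  have a10 : sh (x 1 0) = 0 := can h4 (z 2 0)
  have a01 : sh (x 0 1) = 0 := can h4 (z 0 2)
  have a11 : sh (x 1 1) = 0 := can h4 (z 2 2)
  have b1 : cr (x 0 0) (x 1 0) = 0 := can h2 (z 1 0)
  have b2 : cr (x 0 0) (x 0 1) = 0 := can h2 (z 0 1)
  have b3 : cr (x 1 0) (x 1 1) = 0 := can h2 (z 2 1)
  have b4 : cr (x 0 1) (x 1 1) = 0 := can h2 (z 1 2)
  have b5 : cr (x 0 0) (x 1 1) + cr (x 1 0) (x 0 1) = 0 := z 1 1
  obtain ⟨c, hc⟩ := C.fix _ (x4w C.act hx)
  have e1 : (2 : k) • cr (x 0 0) (x 1 1) = c • u0 k := by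
    rw [← hc]
    linear_combination (norm := module) b5
  have e2 : sh (cr (x 0 0) (x 1 1)) = 0 := by
    have h := sh_cr (x 0 0) (x 1 1)
    rw [a00, a11, tf_zero_left, tf_comm, tf_zero_left, zero_smul, zero_smul, add_zero] at h
    have h' : cr (0 : I27 → k) 0 = 0 := by
      have := cr_smul_left (0 : k) (0 : I27 → k) 0
      rwa [zero_smul, zero_smul] at this
    rwa [h', add_zero] at h
  have e3 : c = 0 := by
    have h := congrArg sh e1
    rw [sh_smul, e2, smul_zero, sh_smul, sh_u0] at h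
    exact pow_eq_zero_iff (by norm_num) |>.1 ((smul_eq_zero.1 h.symm).resolve_right u0_ne)
  have b6 : cr (x 0 0) (x 1 1) = 0 := can h2 (by rw [e1, e3, zero_smul])
  have b7 : cr (x 1 0) (x 0 1) = 0 := by rwa [b6, zero_add] at b5
  obtain ⟨hX, -⟩ := hx.isV C.card ⟨by norm_num, by norm_num, hij, hi, hj⟩ hx0
  have hW := C.white (Sp x) hX (fun v hv => by
    obtain ⟨d, rfl⟩ := hx.mem_span hv
    simp only [Finset.sum_range_succ, Finset.sum_range_zero, zero_add]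
    have := x4white (c := d 0 0) (d := d 1 0) (e := d 0 1) (f := d 1 1) a00 a10 a01 a11 b1 b2 b6 b7 b3 b4
    rw [← this]
    congr 1
    module)
  apply hx0
  funext s s'
  have := mem_Sp (k := k) x s s'
  rw [hW] at this
  exact (Submodule.mem_bot k).1 this

end Cfsg.Agent.R2.F4P.Th
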